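import Cfsg.Agent.H830.B57.AsmII
import Cfsg.Agent.H830.B57.Union
import Cfsg.Agent.H254.BS.PartI
import Cfsg.Agent.H77.TBaseAlt

/-!
# S5717: all simple groups, and the theorem from the rows
-/

set_option autoImplicit false

open Subgroup

namespace Cfsg.Agent.H830.B57

open Cfsg.Agent.H254.BS.PI

/-- `A_d` is a subgroup of `A_n` for `d ≤ n` -/
theorem involves_alt {d n : ℕ} (h : d ≤ n) :
    Cfsg.Involves (alternatingGroup (Fin d)) (alternatingGroup (Fin n)) := by
  classical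
  let f : Fin d ≃ {x : Fin n // x ∈ Set.range (Fin.castLE h)} :=
    Equiv.ofInjective (Fin.castLE h) (Fin.castLE_injective h)
  let φ : Equiv.Perm (Fin d) →* Equiv.Perm (Fin n) := Equiv.Perm.extendDomainHom f
  have hφ : Function.Injective φ := Equiv.Perm.extendDomainHom_injective f
  have hsign : ∀ σ : Equiv.Perm (Fin d), Equiv.Perm.sign (φ σ) = Equiv.Perm.sign σ := by
    intro σ
    exact Equiv.Perm.sign_extendDomain σ f
  let ψ : alternatingGroup (Fin d) →* alternatingGroup (Fin n) :=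
    (φ.comp (alternatingGroup (Fin d)).subtype).codRestrict _ (fun σ => by
      rw [Equiv.Perm.mem_alternatingGroup]
      exact (hsign σ).trans (Equiv.Perm.mem_alternatingGroup.1 σ.2))
  have hψ : Function.Injective ψ := by
    intro a b hab
    exact Subtype.ext (hφ (congrArg Subtype.val hab))
  refine involves_of_injective ψ hψ ?_
  exact inv_iff.2 ⟨⊤, (Subgroup.topEquiv (G := alternatingGroup (Fin d))).toMonoidHom,
    (Subgroup.topEquiv (G := alternatingGroup (Fin d))).surjective⟩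

theorem rows_alt : Rows (fun T _ => Cfsg.IsAlternating T) := by
  obtain ⟨c, hc⟩ := H77.TBaseAlt.tbase_alt
  refine ⟨c + 1, by omega, ?_⟩
  intro d hd T _ _ _ hT hno
  obtain ⟨n, hn, ⟨e⟩⟩ := hT
  have hlt : n < d := by
    by_contra hcon
    push Not at hcon
    exact hno (involves_of_equiv e (involves_alt hcon))
  refine (hc n hn T ⟨e⟩).mono ?_
  calc c * n ≤ c * d := Nat.mul_le_mul_left _ hlt.le
    _ ≤ (c + 1) * d := Nat.mul_le_mul_right _ (Nat.le_succ c)

theorem all_tbase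
    (hcl : ∀ (T : Type) [Group T] [Finite T] [IsSimpleGroup T], Cfsg.IsKnownSimple' T)
    (r1 : Rows (fun T _ => Cfsg.IsPSL T)) (r2 : Rows (fun T _ => Cfsg.IsPSp T))
    (r3 : Rows (fun T _ => Cfsg.IsPSU T)) (r4 : Rows (fun T _ => Cfsg.IsPOmegaOdd T))
    (r5 : Rows (fun T _ => Cfsg.IsPOmegaPlus T)) (r6 : Rows (fun T _ => Cfsg.IsPOmegaMinus T))
    (r7 : Rows (fun T _ => Cfsg.IsExceptionalLieType T))
    (r8 : Rows (fun T _ => Cfsg.IsSporadicGroup T)) :
    ∃ C : ℕ, ∀ d : ℕ, 5 ≤ d → ∀ (T : Type) [Group T] [Finite T] [IsSimpleGroup T],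
      (∃ x y : T, x * y ≠ y * x) → ¬ Cfsg.Involves (alternatingGroup (Fin d)) T →
      TBase T (C * d) := by
  obtain ⟨c0, -, h0⟩ := rows_alt
  obtain ⟨c1, -, h1⟩ := r1
  obtain ⟨c2, -, h2⟩ := r2
  obtain ⟨c3, -, h3⟩ := r3
  obtain ⟨c4, -, h4⟩ := r4
  obtain ⟨c5, -, h5⟩ := r5
  obtain ⟨c6, -, h6⟩ := r6
  obtain ⟨c7, -, h7⟩ := r7
  obtain ⟨c8, -, h8⟩ := r8
  refine ⟨c0 + c1 + c2 + c3 + c4 + c5 + c6 + c7 + c8, ?_⟩
  intro d hd T _ _ _ hna hno
  have mono : ∀ c, c ≤ c0 + c1 + c2 + c3 + c4 + c5 + c6 + c7 + c8 → TBase T (c * d) →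
      TBase T ((c0 + c1 + c2 + c3 + c4 + c5 + c6 + c7 + c8) * d) := fun c hc h =>
    h.mono (Nat.mul_le_mul_right _ hc)
  rcases hcl T with h | h | h | h | h | h | h | h | h | h
  · exfalso
    obtain ⟨x, y, hxy⟩ := hna
    have hp : Fact (Nat.card T).Prime := ⟨h⟩
    have hcyc : IsCyclic T := isCyclic_of_prime_card rfl
    obtain ⟨g, hg⟩ := hcyc.exists_generator
    obtain ⟨i, rfl⟩ := mem_zpowers_iff.1 (hg x)
    obtain ⟨j, rfl⟩ := mem_zpowers_iff.1 (hg y)
    exact hxy (by rw [← zpow_add, ← zpow_add, add_comm])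
  · exact mono c0 (by omega) (h0 d hd T h hno)
  · exact mono c1 (by omega) (h1 d hd T h hno)
  · exact mono c2 (by omega) (h2 d hd T h hno)
  · exact mono c3 (by omega) (h3 d hd T h hno)
  · exact mono c4 (by omega) (h4 d hd T h hno)
  · exact mono c5 (by omega) (h5 d hd T h hno)
  · exact mono c6 (by omega) (h6 d hd T h hno)
  · exact mono c7 (by omega) (h7 d hd T h hno)
  · exact mono c8 (by omega) (h8 d hd T h hno)

end Cfsg.Agent.H830.B57
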