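import Cfsg.Agent.H830.B57.Uni
import Cfsg.Agent.H637.B57.NonAff
import Cfsg.Agent.H855.B57.ProdCase
import Cfsg.Agent.H112.B57.Diag
import Cfsg.Agent.H505.B57.Aff
import Cfsg.Agent.H870.B57.Wr

/-!
# S5717, Part II: assembly

`main2`: from `TBase T (C₁ d)` for all simple groups and `LinPrim d (C₂ d)` to all primitive groups.
-/

set_option autoImplicit false

open Subgroup

namespace Cfsg.Agent.H830.B57

theorem nonAff : NonAff := by
  intro d k b hd h2 hk G Ω _ _ _ _ _ hp hG N _ hmin hna ih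
  refine H637.B57.nonaff_of ?_ ?_ d k b hd h2 (fun T _ _ _ => hk T) G Ω hp hG N hmin hna ih
  · intro G Ω _ _ _ _ _ hp N _ m T e hf ω hNK hprod k b hT ih
    exact H855.B57.prod_case G Ω hp N m T e hf ω hNK hprod k b hT ih
  · intro G Ω _ _ _ _ _ hp N _ m T e hf ω hNK c hc hc2 hinj hsur h2 b ih
    exact H112.B57.diag_case G Ω hp N m T e hf ω hNK c hc hc2 hinj hsur h2 b ih

theorem aff' : Aff := by
  intro d b1 b hL G Ω _ _ _ _ _ hp hG N _ hN hmin hab ih
  exact H505.B57.aff d b1 b hL G Ω hp hG N hN hmin hab ih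

/-- Part II -/
theorem main2 (C1 C2 : ℕ)
    (h2 : ∀ (T : Type) [Group T] [Finite T] [IsSimpleGroup T], ∃ u v : T, closure {u, v} = ⊤)
    (hT : ∀ d : ℕ, 5 ≤ d → ∀ (T : Type) [Group T] [Finite T] [IsSimpleGroup T],
      (∃ x y : T, x * y ≠ y * x) → ¬ Cfsg.Involves (alternatingGroup (Fin d)) T →
      TBase T (C1 * d))
    (hL : ∀ d : ℕ, 5 ≤ d → LinPrim d (C2 * d)) (d : ℕ) (hd : 5 ≤ d) (G Ω : Type) [Group G]
    [Finite G] [MulAction G Ω] [Finite Ω] (hp : MulAction.IsPreprimitive G Ω)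
    (hG : ¬ Cfsg.Involves (alternatingGroup (Fin d)) G) :
    BaseLE G Ω ((2 * C1 + 2 * C2 + 20) * d) :=
  main_of C1 C2 h2 hT hL nonAff aff' d hd _ G Ω rfl hp hG

end Cfsg.Agent.H830.B57
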