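import Cfsg.Agent.H830.B57.Union
import Cfsg.Agent.H254.BS.PartI

/-!
# S5717, N1: fixed point ratios with support imply `TBase`

Union bound for the inner elements, then the 2-generation trick: if `a` fixes `t_j H`, `u t_j H`, `v t_j H` for all `j`,
then `u⁻¹ a(u)` and `v⁻¹ a(v)` fix all `t_j H`, hence are trivial.
-/

set_option autoImplicit false

open Subgroup Finset

namespace Cfsg.Agent.H830.B57.NOne

/-- fixed point ratios `≤ q^(-ν/C)`, at most `q^(C N (s+1))` elements with `ν = s` -/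
structure Strg (C q N : ℕ) (T : Type) [Group T] (ν : T → ℕ) (K : Subgroup T) : Prop where
  one : ∀ x : T, x ≠ 1 → 1 ≤ ν x
  count : ∀ s, Nat.card {x : T // ν x = s} ≤ q ^ (C * N * (s + 1))
  fix : ∀ x : T, x ≠ 1 → (fi x K : ℝ) ^ C * (q : ℝ) ^ ν x ≤ C * (Nat.card T : ℝ) ^ C
  triv : ∀ x : T, x ≠ 1 → C * (fi x K : ℝ) ≤ (C - 1) * Nat.card T

section

variable {T : Type} [Group T]

/-- inner union bound -/
theorem inner_tuple [Finite T] {C q N : ℕ} (hC : 2 ≤ C) (hq : 2 ≤ q) (hN : 1 ≤ N) {ν : T → ℕ}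
    (K : Subgroup T) (h : Strg C q N T ν K) :
    ∃ t : Fin ((C ^ 2 * (4 * C + 4) + 2 * C * (2 * C + 2)) * N) → T,
      ∀ y : T, y ≠ 1 → ∃ j, ¬ (t j)⁻¹ * y * t j ∈ K := by
  classical
  have := Fintype.ofFinite T
  set c0 := C ^ 2 * (4 * C + 4) + 2 * C * (2 * C + 2) with hc0
  have hTpos : (0 : ℝ) < Nat.card T := by exact_mod_cast Nat.card_pos
  have hqR : (2 : ℝ) ≤ q := by exact_mod_cast hq
  have hqpos : (0 : ℝ) < q := by linarith
  have key := exists_tuple (A := T) (Ω := T) (Finset.univ.filter fun y => y ≠ 1)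
    (fun y t => t⁻¹ * y * t ∈ K) (c0 * N) ?_
  · obtain ⟨w, hw⟩ := key
    exact ⟨w, fun y hy => hw y (Finset.mem_filter.2 ⟨Finset.mem_univ _, hy⟩)⟩
  -- the estimate for one element
  have hone : ∀ y : T, y ≠ 1 → (fi y K : ℝ) ^ (c0 * N) ≤
      (Nat.card T : ℝ) ^ (c0 * N) * ((q : ℝ) ^ (ν y * (2 * C + 2) * N))⁻¹ := by
    intro y hy
    set F : ℝ := fi y K / Nat.card T with hF
    have hF0 : 0 ≤ F := by positivity
    have hx : (2 : ℝ) ≤ (q : ℝ) ^ ν y := by
      calc (2 : ℝ) ≤ q := hqR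
        _ = (q : ℝ) ^ 1 := (pow_one _).symm
        _ ≤ (q : ℝ) ^ ν y := pow_le_pow_right₀ (by linarith) (h.one y hy)
    have h1 : F ^ C * (q : ℝ) ^ ν y ≤ C := by
      rw [hF, div_pow, div_mul_eq_mul_div, div_le_iff₀ (by positivity)]
      exact h.fix y hy
    have h2 : C * F ≤ C - 1 := by
      rw [hF, mul_div_assoc', div_le_iff₀ hTpos]
      exact h.triv y hy
    have h3 := num1 C hC F _ hF0 hx h1 h2
    rw [← hc0] at h3
    have h4 : (F ^ c0 * ((q : ℝ) ^ ν y) ^ (2 * C + 2)) ^ N ≤ 1 := pow_le_one₀ (by positivity) h3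
    rw [mul_pow, ← pow_mul, ← pow_mul, ← pow_mul, hF, div_pow, div_mul_eq_mul_div,
      div_le_one (by positivity)] at h4
    rw [← div_eq_mul_inv, le_div_iff₀ (by positivity), mul_assoc (ν y)]
    exact h4
  -- the sum
  have hsum : ∑ y ∈ Finset.univ.filter (fun y : T => y ≠ 1), (fi y K : ℝ) ^ (c0 * N) ≤
      (Nat.card T : ℝ) ^ (c0 * N) * (1 / 3) := by
    calc ∑ y ∈ Finset.univ.filter (fun y : T => y ≠ 1), (fi y K : ℝ) ^ (c0 * N)
        ≤ ∑ y ∈ Finset.univ.filter (fun y : T => y ≠ 1),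
          (Nat.card T : ℝ) ^ (c0 * N) * ((q : ℝ) ^ (ν y * (2 * C + 2) * N))⁻¹ :=
          Finset.sum_le_sum fun y hy => hone y (Finset.mem_filter.1 hy).2
      _ = (Nat.card T : ℝ) ^ (c0 * N) * ∑ y ∈ Finset.univ.filter (fun y : T => y ≠ 1),
          ((q : ℝ) ^ (ν y * (2 * C + 2) * N))⁻¹ := by rw [Finset.mul_sum]
      _ ≤ (Nat.card T : ℝ) ^ (c0 * N) * (1 / 3) := by
          gcongr
          rw [Finset.sum_comp (fun s : ℕ => ((q : ℝ) ^ (s * (2 * C + 2) * N))⁻¹) ν]
          refine le_trans (Finset.sum_le_sum (g := fun s => ((1 : ℝ) / 4) ^ s) ?_) (geo _ ?_)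
          · intro s hs
            have hs1 : 1 ≤ s := by
              obtain ⟨y, hy, rfl⟩ := Finset.mem_image.1 hs
              exact h.one y (Finset.mem_filter.1 hy).2
            have hcard : ((Finset.univ.filter (fun y : T => y ≠ 1)).filter
                (fun y => ν y = s)).card ≤ q ^ (C * N * (s + 1)) := by
              refine le_trans ?_ (h.count s)
              rw [Nat.card_eq_fintype_card, Fintype.card_subtype]
              apply Finset.card_le_card
              intro y hy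
              exact Finset.mem_filter.2 ⟨Finset.mem_univ _, (Finset.mem_filter.1 hy).2⟩
            rw [nsmul_eq_mul, ← div_eq_mul_inv, div_le_iff₀ (by positivity)]
            have e1 : ((((Finset.univ.filter (fun y : T => y ≠ 1)).filter
                (fun y => ν y = s)).card : ℕ) : ℝ) ≤ (q : ℝ) ^ (C * N * (s + 1)) := by
              exact_mod_cast hcard
            refine e1.trans ?_
            have e2 : (4 : ℝ) ^ s ≤ (q : ℝ) ^ (2 * s * N) := by
              calc (4 : ℝ) ^ s = (2 : ℝ) ^ (2 * s) := by rw [pow_mul]; norm_num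
                _ ≤ (q : ℝ) ^ (2 * s) := by gcongr
                _ ≤ (q : ℝ) ^ (2 * s * N) := by
                    apply pow_le_pow_right₀ (by linarith)
                    exact Nat.le_mul_of_pos_right _ (by omega)
            have e3 : (q : ℝ) ^ (C * N * (s + 1)) * (4 : ℝ) ^ s ≤
                (q : ℝ) ^ (s * (2 * C + 2) * N) := by
              calc (q : ℝ) ^ (C * N * (s + 1)) * (4 : ℝ) ^ s
                  ≤ (q : ℝ) ^ (C * N * (s + 1)) * (q : ℝ) ^ (2 * s * N) := by gcongr
                _ = (q : ℝ) ^ (C * N * (s + 1) + 2 * s * N) := by rw [pow_add]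
                _ ≤ (q : ℝ) ^ (s * (2 * C + 2) * N) := by
                    apply pow_le_pow_right₀ (by linarith)
                    have : s + 1 ≤ 2 * s := by omega
                    calc C * N * (s + 1) + 2 * s * N ≤ C * N * (2 * s) + 2 * s * N := by gcongr
                      _ = s * (2 * C + 2) * N := by ring
            rw [one_div, inv_pow]
            rw [← div_eq_inv_mul, le_div_iff₀ (by positivity)]
            exact e3
          · intro s hs
            obtain ⟨y, hy, rfl⟩ := Finset.mem_image.1 hs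
            exact h.one y (Finset.mem_filter.1 hy).2
  have hlt : ∑ y ∈ Finset.univ.filter (fun y : T => y ≠ 1), (fi y K : ℝ) ^ (c0 * N) <
      (Nat.card T : ℝ) ^ (c0 * N) := by
    refine lt_of_le_of_lt hsum ?_
    have : (0 : ℝ) < (Nat.card T : ℝ) ^ (c0 * N) := by positivity
    linarith
  exact_mod_cast hlt


/-- `fi` is the fixed point ratio on the cosets -/
theorem fi_eq [Finite T] (y : T) (H : Subgroup T) :
    (fi y H : ℝ) = H917.FP.fpr (T ⧸ H) {y} * Nat.card T := by
  have h1 : fi y H = Nat.card H * Nat.card {w : T ⧸ H // ∀ a ∈ ({y} : Set T), a • w = w} := by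
    have h2 := QuotientGroup.card_preimage_mk H {w : T ⧸ H | ∀ a ∈ ({y} : Set T), a • w = w}
    rw [show Nat.card {w : T ⧸ H // ∀ a ∈ ({y} : Set T), a • w = w} =
      Nat.card ({w : T ⧸ H | ∀ a ∈ ({y} : Set T), a • w = w} : Set (T ⧸ H)) from rfl, ← h2]
    unfold fi
    refine Nat.card_congr (Equiv.subtypeEquivRight fun t => ?_)
    simp only [Set.mem_singleton_iff, forall_eq, Set.mem_preimage, Set.mem_ofPred_eq]
    rw [MulAction.Quotient.smul_coe, smul_eq_mul, eq_comm, QuotientGroup.eq, mul_assoc]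
  have h3 : Nat.card T = Nat.card (T ⧸ H) * Nat.card H := Subgroup.card_eq_card_quotient_mul_card_subgroup H
  have h4 : (0 : ℝ) < Nat.card (T ⧸ H) := by exact_mod_cast Nat.card_pos
  unfold H917.FP.fpr
  rw [h1, h3]
  push_cast
  field_simp

/-- the 2-generation trick -/
theorem tbase_of_tuple {k : ℕ} (h2 : ∃ u v : T, closure {u, v} = ⊤)
    (h : ∀ H : Subgroup T, H ≠ ⊤ → ∃ t : Fin k → T, ∀ y : T, y ≠ 1 → ∃ j, ¬ (t j)⁻¹ * y * t j ∈ H) :
    TBase T (3 * k) := by
  intro H hH
  obtain ⟨t, ht⟩ := h H hH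
  obtain ⟨u, v, huv⟩ := h2
  let f : Fin 3 × Fin k → T := fun p => (if p.1 = 0 then 1 else if p.1 = 1 then u else v) * t p.2
  refine ⟨fun j => f (finProdFinEquiv.symm j), ?_⟩
  intro a _ hfix
  have hf : ∀ p, (f p)⁻¹ * a (f p) ∈ H := by
    intro p
    have := hfix (finProdFinEquiv p)
    simp only [Equiv.symm_apply_apply] at this
    exact this
  have h0 : ∀ j, (t j)⁻¹ * a (t j) ∈ H := by
    intro j
    have := hf (0, j)
    simpa [f] using this
  have key : ∀ w : T, (∀ j, (w * t j)⁻¹ * a (w * t j) ∈ H) → a w = w := by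
    intro w hw
    by_contra hne
    obtain ⟨j, hj⟩ := ht (w⁻¹ * a w) (fun h => hne (inv_mul_eq_one.1 h).symm)
    apply hj
    have h1 := H.mul_mem (hw j) (H.inv_mem (h0 j))
    have h3 : (w * t j)⁻¹ * a (w * t j) * ((t j)⁻¹ * a (t j))⁻¹ = (t j)⁻¹ * (w⁻¹ * a w) * t j := by
      rw [map_mul]; group
    rwa [h3] at h1
  have hu : a u = u := key u fun j => by
    have := hf (1, j)
    simpa [f] using this
  have hv : a v = v := key v fun j => by
    have := hf (2, j)
    simpa [f] using this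
  have hle : closure {u, v} ≤ (a.toMonoidHom.eqLocus (MonoidHom.id T)) := by
    rw [closure_le]
    rintro x (rfl | rfl)
    · exact hu
    · exact hv
  ext x
  have : x ∈ closure {u, v} := by rw [huv]; trivial
  exact hle this

end

open Cfsg.Agent.H254.BS.PI Cfsg.Agent.H917.FP in
/-- **N1** from the 2-generation of the finite simple groups (S3948). -/
theorem t_tbase_of_strong
    (h2 : ∀ (T : Type) [Group T] [Finite T] [IsSimpleGroup T], ∃ u v : T, closure {u, v} = ⊤) :
    T_tbase_of_strong := by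
  intro C
  set D := max C 2 with hD
  have hD2 : 2 ≤ D := le_max_right _ _
  have hCD : C ≤ D := le_max_left _ _
  refine ⟨3 * (D ^ 2 * (4 * D + 4) + 2 * D * (2 * D + 2)), ?_⟩
  intro q N hq hN T _ _ _ hna ν hν hcount hfix htriv
  have hqR : (2 : ℝ) ≤ q := by exact_mod_cast hq
  have hTpos : (0 : ℝ) < Nat.card T := by exact_mod_cast Nat.card_pos
  have hDR : (2 : ℝ) ≤ D := by exact_mod_cast hD2
  have hCDR : (C : ℝ) ≤ D := by exact_mod_cast hCD
  -- `C` is positive
  have hC0 : 0 < C := by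
    rcases Nat.eq_zero_or_pos C with h0 | h0
    · exfalso
      obtain ⟨x, y, hxy⟩ := hna
      have hx : x ≠ 1 := by
        rintro rfl
        exact hxy (by rw [one_mul, mul_one])
      let _ : MulAction T (Fin 0) :=
        { smul := fun _ w => w
          one_smul := fun _ => rfl
          mul_smul := fun _ _ _ => rfl }
      have h1 := hfix x hx (Fin 0) (fun w => w.elim0)
      rw [h0, pow_zero, one_mul, Nat.cast_zero] at h1
      have : (0 : ℝ) < (q : ℝ) ^ ν x := by positivity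
      linarith
    · exact h0
  have hC0R : (0 : ℝ) < C := by exact_mod_cast hC0
  rw [mul_assoc]
  refine tbase_of_tuple (h2 T) ?_
  intro H hH
  have hglob : ∀ ω : T ⧸ H, ∃ g : T, g • ω ≠ ω := by
    intro ω
    induction ω using QuotientGroup.induction_on with
    | _ t =>
      by_contra hcon
      push Not at hcon
      apply hH
      rw [eq_top_iff]
      intro g _
      have h1 := hcon (t * g * t⁻¹)
      rw [MulAction.Quotient.smul_coe, smul_eq_mul, eq_comm, QuotientGroup.eq] at h1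
      have h3 : t⁻¹ * (t * g * t⁻¹ * t) = g := by group
      rwa [h3] at h1
  refine inner_tuple hD2 hq hN (ν := ν) H ⟨hν, ?_, ?_, ?_⟩
  · intro s
    refine (hcount s).trans (Nat.pow_le_pow_right (by omega) ?_)
    gcongr
  · intro x hx
    have h1 := hfix x hx (T ⧸ H) hglob
    have h3 := fpr_nonneg (T ⧸ H) ({x} : Set T)
    have h4 := fpr_le_one (T ⧸ H) ({x} : Set T)
    rw [fi_eq, mul_pow]
    calc fpr (T ⧸ H) {x} ^ D * (Nat.card T : ℝ) ^ D * (q : ℝ) ^ ν x
        = (fpr (T ⧸ H) {x} ^ D * (q : ℝ) ^ ν x) * (Nat.card T : ℝ) ^ D := by ring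
      _ ≤ (fpr (T ⧸ H) {x} ^ C * (q : ℝ) ^ ν x) * (Nat.card T : ℝ) ^ D := by
          gcongr ?_ * _ * _
          exact pow_le_pow_of_le_one h3 h4 hCD
      _ ≤ D * (Nat.card T : ℝ) ^ D := by
          gcongr
          exact h1.trans hCDR
  · intro x hx
    have h1 := htriv x hx (T ⧸ H) hglob
    rw [fi_eq]
    have h3 : fpr (T ⧸ H) {x} ≤ 1 - 1 / D := by
      refine h1.trans ?_
      have : (1 : ℝ) / D ≤ 1 / C := one_div_le_one_div_of_le hC0R hCDR
      linarith
    have h5 : (D : ℝ) * fpr (T ⧸ H) {x} ≤ D - 1 := by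
      calc (D : ℝ) * fpr (T ⧸ H) {x} ≤ D * (1 - 1 / D) := by gcongr
        _ = D - 1 := by field_simp
    calc (D : ℝ) * (fpr (T ⧸ H) {x} * Nat.card T) = (D * fpr (T ⧸ H) {x}) * Nat.card T := by ring
      _ ≤ (D - 1) * Nat.card T := by gcongr

end Cfsg.Agent.H830.B57.NOne
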