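import Cfsg.Agent.H830.B57.Defs

/-!
# S5717: from bases of almost simple groups to `TBase`

`RowBase b T` is the field `base` of `Cfsg.Agent.H254.BS.Row` (with `b = c * d`).
-/

set_option autoImplicit false

open Subgroup

namespace Cfsg.Agent.H830.B57

/-- every almost simple group `G` with socle `N ≅ T` has a base of size `b` on every finite `G`-set without
`N`-fixed points (the field `base` of `Cfsg.Agent.H254.BS.Row`) -/
def RowBase (b : ℕ) (T : Type) [Group T] : Prop :=
  ∀ (G : Type) [Group G] [Finite G] (N : Subgroup G) [N.Normal] (_ : N ≃* T),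
    Subgroup.centralizer (N : Set G) = ⊥ →
    ∀ (Ω : Type) [Finite Ω] [Nonempty Ω] [MulAction G Ω], (∀ ω : Ω, ∃ g ∈ N, g • ω ≠ ω) →
      ∃ B : Finset Ω, B.card ≤ b ∧ ∀ g : G, (∀ x ∈ B, g • x = x) → g = 1

section

variable {T : Type} [Group T]

/-- the automorphisms normalising `H` -/
def A0 (H : Subgroup T) : Subgroup (MulAut T) where
  carrier := {a | ∀ h, h ∈ H ↔ a h ∈ H}
  one_mem' := fun _ => Iff.rfl
  mul_mem' := by
    intro a b ha hb h
    exact (hb h).trans (ha (b h))
  inv_mem' := by
    intro a ha h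
    have h1 := ha (a⁻¹ h)
    rw [show a (a⁻¹ h) = h from a.apply_symm_apply h] at h1
    exact h1.symm

theorem mem_A0 {H : Subgroup T} {a : MulAut T} : a ∈ A0 H ↔ ∀ h, h ∈ H ↔ a h ∈ H := Iff.rfl

theorem conj_mem_A0 {H : Subgroup T} {t : T} (ht : t ∈ H) : MulAut.conj t ∈ A0 H := by
  intro h
  rw [MulAut.conj_apply]
  constructor
  · intro hh
    exact H.mul_mem (H.mul_mem ht hh) (H.inv_mem ht)
  · intro hh
    have h1 := H.mul_mem (H.mul_mem (H.inv_mem ht) hh) ht
    simpa [mul_assoc] using h1

theorem normal_of_le {H : Subgroup T} (h : (MulAut.conj (G := T)).range ≤ A0 H) : H.Normal := by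
  constructor
  intro n hn g
  exact (h ⟨g, rfl⟩ n).1 hn

theorem aut_conj (a : MulAut T) (t : T) : a * MulAut.conj t * a⁻¹ = MulAut.conj (a t) := by
  ext s
  change a (t * (a⁻¹ s) * t⁻¹) = a t * s * (a t)⁻¹
  rw [map_mul, map_mul, map_inv, show a (a⁻¹ s) = s from a.apply_symm_apply s]

theorem tbase_of_row [Finite T] [IsSimpleGroup T] (hna : ∃ x y : T, x * y ≠ y * x)
    (h2 : ∃ u v : T, closure {u, v} = ⊤) {b : ℕ} (hb : RowBase b T) (k : ℕ) (hk : 2 ≤ k)
    (hbk : b ≤ k) : TBase T k := by
  classical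
  intro H hH
  by_cases hbot : H = ⊥
  · obtain ⟨u, v, huv⟩ := h2
    refine ⟨fun j => if (j : ℕ) = 0 then u else v, ?_⟩
    intro a _ hfix
    have hu := hfix ⟨0, by omega⟩
    have hv := hfix ⟨1, by omega⟩
    simp only [hbot, mem_bot, if_true, one_ne_zero, if_false] at hu hv
    have hu' : a u = u := (inv_mul_eq_one.1 hu).symm
    have hv' : a v = v := (inv_mul_eq_one.1 hv).symm
    have hle : closure {u, v} ≤ (a.toMonoidHom.eqLocus (MonoidHom.id T)) := by
      rw [closure_le]
      rintro x (rfl | rfl)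
      · exact hu'
      · exact hv'
    ext x
    have : x ∈ closure {u, v} := by rw [huv]; trivial
    exact hle this
  · -- the almost simple group
    have hcen : ∀ z : T, (∀ t, z * t = t * z) → z = 1 := by
      intro z hz
      have hzc : z ∈ center T := mem_center_iff.2 fun t => (hz t).symm
      rcases (inferInstance : (center T).Normal).eq_bot_or_eq_top with h | h
      · rw [h] at hzc
        exact hzc
      · exfalso
        obtain ⟨x, y, hxy⟩ := hna
        apply hxy
        have : x ∈ center T := by rw [h]; trivial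
        exact (mem_center_iff.1 this y).symm
    have hinj : Function.Injective (MulAut.conj (G := T)) := by
      rw [injective_iff_map_eq_one]
      intro z hz
      apply hcen
      intro t
      have h1 : MulAut.conj z t = t := by rw [hz]; rfl
      rw [MulAut.conj_apply] at h1
      calc z * t = (z * t * z⁻¹) * z := by group
        _ = t * z := by rw [h1]
    let G1 : Subgroup (MulAut T) := (MulAut.conj (G := T)).range ⊔ A0 H
    have hInn : ((MulAut.conj (G := T)).range).Normal := by
      constructor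
      rintro _ ⟨t, rfl⟩ a
      exact ⟨a t, (aut_conj a t).symm⟩
    let N : Subgroup G1 := ((MulAut.conj (G := T)).range).subgroupOf G1
    have hNn : N.Normal := inferInstance
    have hle : (MulAut.conj (G := T)).range ≤ G1 := le_sup_left
    have hA : A0 H ≤ G1 := le_sup_right
    let e : N ≃* T := (Subgroup.subgroupOfEquivOfLe hle).trans
      (MonoidHom.ofInjective hinj).symm
    have hcenN : Subgroup.centralizer (N : Set G1) = ⊥ := by
      rw [eq_bot_iff]
      intro a ha
      rw [mem_centralizer_iff] at ha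
      rw [mem_bot]
      apply Subtype.ext
      apply MulEquiv.ext
      intro t
      have h1 := ha ⟨MulAut.conj t, hle ⟨t, rfl⟩⟩ (mem_subgroupOf.2 ⟨t, rfl⟩)
      have h2 : MulAut.conj t * (a : MulAut T) = (a : MulAut T) * MulAut.conj t :=
        congrArg Subtype.val h1
      have h3 : MulAut.conj ((a : MulAut T) t) = MulAut.conj t := by
        rw [← aut_conj, ← h2, mul_assoc, mul_inv_cancel, mul_one]
      exact hinj h3
    let S : Subgroup G1 := (A0 H).subgroupOf G1
    have hfixp : ∀ ω : G1 ⧸ S, ∃ g ∈ N, g • ω ≠ ω := by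
      intro ω
      by_contra hcon
      push Not at hcon
      obtain ⟨g, rfl⟩ := QuotientGroup.mk_surjective ω
      have hall : (MulAut.conj (G := T)).range ≤ A0 H := by
        intro x hx
        let y : G1 := g * ⟨x, hle hx⟩ * g⁻¹
        have hy : y ∈ N := hNn.conj_mem _ (mem_subgroupOf.2 hx) g
        have h1 := hcon y hy
        rw [MulAction.Quotient.smul_mk, QuotientGroup.eq] at h1
        have h2 : (y • g)⁻¹ * g = (⟨x, hle hx⟩ : G1)⁻¹ := by
          change (g * ⟨x, hle hx⟩ * g⁻¹ * g)⁻¹ * g = _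
          group
        rw [h2] at h1
        have h3 := S.inv_mem h1
        rw [inv_inv] at h3
        exact mem_subgroupOf.1 h3
      have hHn := normal_of_le hall
      rcases hHn.eq_bot_or_eq_top with h | h
      · exact hbot h
      · exact hH h
    obtain ⟨B, hB1, hB2⟩ := hb G1 N e hcenN (G1 ⧸ S) hfixp
    -- representatives in `T`
    have hrep : ∀ ω : G1 ⧸ S, ∃ t : T, ω = ((⟨MulAut.conj t, hle ⟨t, rfl⟩⟩ : G1) : G1 ⧸ S) := by
      intro ω
      obtain ⟨g, rfl⟩ := QuotientGroup.mk_surjective ω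
      obtain ⟨x, hx, y, hy, hxy⟩ := (mem_sup_of_normal_left).1 g.2
      obtain ⟨t, rfl⟩ := hx
      refine ⟨t, ?_⟩
      rw [QuotientGroup.eq]
      apply S.inv_mem_iff.1
      rw [mul_inv_rev, inv_inv]
      apply mem_subgroupOf.2
      change (MulAut.conj t)⁻¹ * (g : MulAut T) ∈ A0 H
      rw [← hxy, inv_mul_cancel_left]
      exact hy
    choose f hf using hrep
    -- enumerate `B`
    obtain ⟨enum, henum⟩ : ∃ enum : Fin k → T, ∀ ω ∈ B, ∃ j, enum j = f ω := by
      let eB := B.equivFin
      have hc : B.card ≤ k := hB1.trans hbk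
      refine ⟨fun j => if h : (j : ℕ) < B.card then f (eB.symm ⟨j, h⟩ : B) else 1, ?_⟩
      intro ω hω
      refine ⟨⟨(eB ⟨ω, hω⟩ : Fin B.card), lt_of_lt_of_le (eB ⟨ω, hω⟩).2 hc⟩, ?_⟩
      simp
    refine ⟨enum, ?_⟩
    intro a ha hfix
    have hone := hB2 ⟨a, hA ha⟩ ?_
    · exact congrArg Subtype.val hone
    intro ω hω
    obtain ⟨j, hj⟩ := henum ω hω
    have h1 := hfix j
    rw [hj] at h1
    rw [hf ω, MulAction.Quotient.smul_mk, QuotientGroup.eq]
    apply mem_subgroupOf.2
    apply (A0 H).inv_mem_iff.1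
    change (((a * MulAut.conj (f ω))⁻¹ * MulAut.conj (f ω))⁻¹ : MulAut T) ∈ A0 H
    have h3 : ((a * MulAut.conj (f ω))⁻¹ * MulAut.conj (f ω))⁻¹ =
        MulAut.conj ((f ω)⁻¹ * a (f ω)) * a := by
      rw [map_mul, map_inv, ← aut_conj]
      group
    rw [h3]
    exact (A0 H).mul_mem (conj_mem_A0 h1) ha

end

end Cfsg.Agent.H830.B57
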