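import Cfsg.Agent.H917.FP.TV

/-!
# S5717, bounded rank: fixed point ratios of root groups (helper830)

`root_bound`: `A` a root group of the finite group `M` such that for almost all `u : M` the groups `A`, `u A u⁻¹` are the
two root groups of an image of `SL₂(K)`. If the normal closure of `A` is `M` then `A` fixes at most
`2 k |Ω| / |K|` points of every finite `M`-set `Ω` without global fixed points, `k = log₂ |M| + 1`.
-/

set_option autoImplicit false

open Subgroup Finset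

namespace Cfsg.Agent.H830.B57.RootB

open Cfsg.Agent.H917.FP

section Group

variable {M : Type*} [Group M]

/-- the elements moving `A` into `H` -/
def SS (A : Set M) (H : Subgroup M) : Set M := {g | ∀ a ∈ A, g * a * g⁻¹ ∈ H}

theorem mem_SS {A : Set M} {H : Subgroup M} {g : M} : g ∈ SS A H ↔ ∀ a ∈ A, g * a * g⁻¹ ∈ H := Iff.rfl

theorem SS_closure {A B : Set M} {H : Subgroup M} {g : M} (hg : g ∈ SS A H) (h : B ⊆ (closure A : Set M)) :
    g ∈ SS B H := by
  intro b hb
  have h1 : closure A ≤ H.comap (MulAut.conj g).toMonoidHom := by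
    rw [closure_le]
    intro a ha
    exact hg a ha
  exact h1 (h hb)

theorem SS_mul {A : Set M} {H : Subgroup M} {g y : M} : g * y ∈ SS A H ↔ g ∈ SS (cj y A) H := by
  constructor
  · rintro h _ ⟨a, ha, rfl⟩
    have := h a ha
    rw [mul_inv_rev] at this
    simpa [mul_assoc] using this
  · intro h a ha
    have := h (y * a * y⁻¹) ⟨a, ha, rfl⟩
    rw [mul_inv_rev]
    simpa [mul_assoc] using this

variable [Finite M]

/-- from the subgroups to the `M`-sets -/
theorem fpr_le_of_SS (A : Set M) (δ : ℝ)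
    (h : ∀ H : Subgroup M, H ≠ ⊤ → (Nat.card (SS A H) : ℝ) ≤ δ * Nat.card M)
    (Ω : Type*) [Finite Ω] [MulAction M Ω] (hΩ : ∀ ω : Ω, ∃ g : M, g • ω ≠ ω) : fpr Ω A ≤ δ ∨ IsEmpty Ω := by
  classical
  have := Fintype.ofFinite M
  have := Fintype.ofFinite Ω
  rcases isEmpty_or_nonempty Ω with hE | hE
  · exact Or.inr hE
  left
  have hMpos : (0 : ℝ) < Nat.card M := by exact_mod_cast Nat.card_pos
  have hΩpos : (0 : ℝ) < Nat.card Ω := by exact_mod_cast Nat.card_pos
  have e0 : ∀ (g : M) (w : Ω), (∀ a ∈ A, a • (g⁻¹ • w) = g⁻¹ • w) ↔ g ∈ SS A (MulAction.stabilizer M w) := by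
    intro g w
    refine forall_congr' fun a => forall_congr' fun _ => ?_
    rw [MulAction.mem_stabilizer_iff, mul_smul, mul_smul, smul_eq_iff_eq_inv_smul g]
  have h1 : ∑ g : M, ∑ w : Ω, (if ∀ a ∈ A, a • (g⁻¹ • w) = g⁻¹ • w then (1 : ℝ) else 0) =
      Nat.card M * (fpr Ω A * Nat.card Ω) := by
    have : ∀ g : M, ∑ w : Ω, (if ∀ a ∈ A, a • (g⁻¹ • w) = g⁻¹ • w then (1 : ℝ) else 0) = fpr Ω A * Nat.card Ω := by
      intro g
      rw [← sum_ind]
      exact Fintype.sum_equiv (MulAction.toPerm (g⁻¹)) _ _ (fun w => by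
        unfold ind
        simp only [MulAction.toPerm_apply])
    rw [Finset.sum_congr rfl fun g _ => this g, Finset.sum_const, nsmul_eq_mul, Finset.card_univ,
      Nat.card_eq_fintype_card (α := M)]
  have h2 : ∑ g : M, ∑ w : Ω, (if ∀ a ∈ A, a • (g⁻¹ • w) = g⁻¹ • w then (1 : ℝ) else 0) ≤
      ∑ _w : Ω, δ * Nat.card M := by
    rw [Finset.sum_comm]
    refine Finset.sum_le_sum fun w _ => ?_
    have h3 : ∑ g : M, (if ∀ a ∈ A, a • (g⁻¹ • w) = g⁻¹ • w then (1 : ℝ) else 0) =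
        Nat.card (SS A (MulAction.stabilizer M w)) := by
      rw [Finset.sum_boole, Nat.card_eq_fintype_card, ← Set.toFinset_card]
      congr 2
      ext g
      rw [Finset.mem_filter, Set.mem_toFinset]
      simp only [Finset.mem_univ, true_and]
      exact e0 g w
    rw [h3]
    apply h
    intro htop
    obtain ⟨g, hg⟩ := hΩ w
    apply hg
    have : g ∈ MulAction.stabilizer M w := by rw [htop]; trivial
    exact this
  rw [h1, Finset.sum_const, nsmul_eq_mul, Finset.card_univ, ← Nat.card_eq_fintype_card (α := Ω)] at h2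
  have h3 : (Nat.card M * Nat.card Ω : ℝ) * fpr Ω A ≤ (Nat.card M * Nat.card Ω : ℝ) * δ := by nlinarith [h2]
  exact le_of_mul_le_mul_left h3 (by positivity)

/-- `k = log₂ |M| + 1` conjugates of `A` generate `M` -/
theorem exists_conj (A : Set M) (hA : normalClosure A = ⊤) :
    ∃ B : Finset M, B.card ≤ Nat.log 2 (Nat.card M) + 1 ∧ closure (⋃ g ∈ B, cj g A) = ⊤ := by
  classical
  have step : ∀ j : ℕ, ∃ B : Finset M, B.card ≤ j ∧ (closure (⋃ g ∈ B, cj g A) = ⊤ ∨
      2 ^ j ≤ Nat.card (closure (⋃ g ∈ B, cj g A))) := by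
    intro j
    induction j with
    | zero => exact ⟨∅, le_rfl, Or.inr (by rw [pow_zero]; exact Nat.card_pos)⟩
    | succ j ih =>
      obtain ⟨B, hB, h⟩ := ih
      rcases h with h | h
      · exact ⟨B, by omega, Or.inl h⟩
      by_cases ht : closure (⋃ g ∈ B, cj g A) = ⊤
      · exact ⟨B, by omega, Or.inl ht⟩
      obtain ⟨g, hg⟩ : ∃ g : M, ¬ cj g A ⊆ (closure (⋃ g ∈ B, cj g A) : Set M) := by
        by_contra hcon
        push Not at hcon
        apply ht
        rw [eq_top_iff, ← hA, normalClosure, closure_le]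
        intro x hx
        obtain ⟨a, ha, hax⟩ := Group.mem_conjugatesOfSet_iff.1 hx
        obtain ⟨g, rfl⟩ := isConj_iff.1 hax
        exact hcon g ⟨a, ha, rfl⟩
      refine ⟨insert g B, (Finset.card_insert_le _ _).trans (by omega), Or.inr ?_⟩
      have hle : closure (⋃ b ∈ B, cj b A) ≤ closure (⋃ b ∈ insert g B, cj b A) := by
        apply Subgroup.closure_mono
        intro x hx
        simp only [Set.mem_iUnion] at hx ⊢
        obtain ⟨i, hi, hx⟩ := hx
        exact ⟨i, Finset.mem_insert_of_mem hi, hx⟩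
      have hne : closure (⋃ b ∈ B, cj b A) ≠ closure (⋃ b ∈ insert g B, cj b A) := by
        intro he
        apply hg
        rw [he]
        intro x hx
        apply Subgroup.subset_closure
        simp only [Set.mem_iUnion]
        exact ⟨g, Finset.mem_insert_self _ _, hx⟩
      obtain ⟨c, hc⟩ := card_dvd_of_le hle
      rw [hc, pow_succ]
      apply Nat.mul_le_mul h
      by_contra hc2
      have hc1 : c ≤ 1 := by omega
      apply hne
      apply eq_of_le_of_card_ge hle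
      rw [hc]
      calc Nat.card (closure (⋃ g ∈ B, cj g A)) * c ≤ Nat.card (closure (⋃ g ∈ B, cj g A)) * 1 :=
            Nat.mul_le_mul_left _ hc1
        _ = _ := mul_one _
  obtain ⟨B, hB, h⟩ := step (Nat.log 2 (Nat.card M) + 1)
  refine ⟨B, hB, ?_⟩
  rcases h with h | h
  · exact h
  exfalso
  have h1 := Nat.lt_pow_succ_log_self (b := 2) (by norm_num) (Nat.card M)
  have h2 : Nat.card (closure (⋃ g ∈ B, cj g A)) ≤ Nat.card M :=
    Nat.le_of_dvd Nat.card_pos (card_subgroup_dvd_card _)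
  omega

theorem card_SS_le {A : Set M} {B : Finset M} (hB : closure (⋃ g ∈ B, cj g A) = ⊤) {H : Subgroup M} (hH : H ≠ ⊤) :
    Nat.card M ≤ B.card * Nat.card ((SS A H)ᶜ : Set M) := by
  classical
  have := Fintype.ofFinite M
  have h1 : (Finset.univ : Finset M) ⊆ B.biUnion fun b => Finset.univ.filter fun g => g * b ∉ SS A H := by
    intro g _
    rw [Finset.mem_biUnion]
    by_contra hcon
    push Not at hcon
    apply hH
    rw [eq_top_iff]
    have h2 : (⊤ : Subgroup M) ≤ H.comap (MulAut.conj g).toMonoidHom := by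
      rw [← hB, closure_le]
      intro x hx
      simp only [Set.mem_iUnion] at hx
      obtain ⟨b, hb, hx⟩ := hx
      have h3 : g * b ∈ SS A H := by
        by_contra h4
        exact hcon b hb (Finset.mem_filter.2 ⟨Finset.mem_univ _, h4⟩)
      exact SS_mul.1 h3 x hx
    intro x _
    have h3 := h2 (mem_top (g⁻¹ * x * g))
    have h4 : g * (g⁻¹ * x * g) * g⁻¹ = x := by group
    rw [mem_comap] at h3
    change g * (g⁻¹ * x * g) * g⁻¹ ∈ H at h3
    rwa [h4] at h3
  have h5 := Finset.card_le_card h1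
  rw [Finset.card_univ, ← Nat.card_eq_fintype_card] at h5
  refine h5.trans (Finset.card_biUnion_le.trans ?_)
  have h6 : ∀ b ∈ B, (Finset.univ.filter fun g => g * b ∉ SS A H).card ≤ Nat.card ((SS A H)ᶜ : Set M) := by
    intro b _
    rw [Nat.card_eq_fintype_card, ← Set.toFinset_card]
    refine Finset.card_le_card_of_injOn (fun g => g * b) ?_ ?_
    · intro g hg
      rw [Finset.mem_coe, Set.mem_toFinset]
      exact (Finset.mem_filter.1 hg).2
    · intro g _ g' _ he
      exact mul_right_cancel he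
  calc ∑ b ∈ B, (Finset.univ.filter fun g => g * b ∉ SS A H).card ≤ ∑ _b ∈ B, Nat.card ((SS A H)ᶜ : Set M) :=
        Finset.sum_le_sum h6
    _ = _ := by rw [Finset.sum_const, smul_eq_mul]

/-- pairs -/
theorem sum_SS (A : Set M) (H : Subgroup M) [Fintype M] :
    ∑ u : M, Nat.card (SS (A ∪ cj u A) H) = Nat.card (SS A H) ^ 2 := by
  classical
  have h1 : ∀ u : M, Nat.card (SS (A ∪ cj u A) H) = Nat.card {g : SS A H // (g : M) * u ∈ SS A H} := by
    intro u
    refine Nat.card_congr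
      { toFun := fun g => ⟨⟨g.1, fun a ha => g.2 a (Or.inl ha)⟩, SS_mul.2 fun a ha => g.2 a (Or.inr ha)⟩
        invFun := fun g => ⟨g.1.1, ?_⟩
        left_inv := fun g => rfl
        right_inv := fun g => rfl }
    rintro a (ha | ha)
    · exact g.1.2 a ha
    · exact SS_mul.1 g.2 a ha
  rw [Finset.sum_congr rfl fun u _ => h1 u]
  have h2 : ∑ u : M, Nat.card {g : SS A H // (g : M) * u ∈ SS A H} =
      Nat.card (Σ u : M, {g : SS A H // (g : M) * u ∈ SS A H}) := by
    rw [Nat.card_sigma]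
  rw [h2, sq, ← Nat.card_prod]
  refine Nat.card_congr
    { toFun := fun x => (x.2.1, ⟨(x.2.1 : M) * x.1, x.2.2⟩)
      invFun := fun y => ⟨(y.1 : M)⁻¹ * y.2, ⟨y.1, by rw [mul_inv_cancel_left]; exact y.2.2⟩⟩
      left_inv := ?_
      right_inv := ?_ }
  · rintro ⟨u, g, hg⟩
    simp only [Sigma.mk.injEq]
    have e : ((g : SS A H) : M)⁻¹ * (g * u) = u := inv_mul_cancel_left _ _
    refine ⟨e, ?_⟩
    congr 1
    · simp only [e]
    · exact proof_irrel_heq _ _
  · rintro ⟨a, b⟩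
    simp

end Group

section SL

variable {K : Type*} [Field K]

theorem up_mem {c : K} (hc : c ≠ 0) (b : K) (N : Subgroup (Matrix.SpecialLinearGroup (Fin 2) K))
    (h1 : ∀ a, lo a ∈ N) (h2 : ∀ a, up c * lo a * (up c)⁻¹ ∈ N) : up b ∈ N := by
  have h3 := h2 (-b / c ^ 2)
  have h4 := N.mul_mem (N.mul_mem (h1 (-1 / c)) h3) (N.inv_mem (h1 (-1 / c)))
  have h6 : ∀ x : K, ((up x)⁻¹).1 = !![1, -x; 0, 1] := by
    intro x
    rw [Matrix.SpecialLinearGroup.coe_inv]
    simp [up, Matrix.adjugate_fin_two]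
  have h5 : lo (-1 / c) * (up c * lo (-b / c ^ 2) * (up c)⁻¹) * (lo (-1 / c))⁻¹ = up b := by
    rw [mul_inv_eq_iff_eq_mul]
    apply Subtype.ext
    simp only [Matrix.SpecialLinearGroup.coe_mul, h6]
    simp only [up, lo]
    ext i j
    fin_cases i <;> fin_cases j <;> simp [Matrix.mul_apply, Fin.sum_univ_two] <;> field_simp <;> ring
  rwa [h5] at h4

variable {M : Type*} [Group M] [Finite M]

/-- one `SL₂`: `q |S| ≤ q |S₂| + |M|` -/
theorem card_SS_pair [Finite K] (A : Set M) (u : M) (H : Subgroup M)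
    (φ : Matrix.SpecialLinearGroup (Fin 2) K →* M) (h1 : ∀ x, x ∈ A ↔ ∃ c, φ (lo c) = x)
    (h2 : ∀ x, x ∈ cj u A ↔ ∃ c, φ (up c) = x) :
    Nat.card K * Nat.card (SS A H) ≤ Nat.card K * Nat.card (SS (A ∪ cj u A) H) + Nat.card M := by
  classical
  have := Fintype.ofFinite M
  have := Fintype.ofFinite K
  have e1 : ∀ c : K, (Finset.univ.filter fun g : M => g * φ (up c) ∈ SS A H).card = Nat.card (SS A H) := by
    intro c
    rw [Nat.card_eq_fintype_card, ← Set.toFinset_card]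
    refine Finset.card_bij (fun g _ => g * φ (up c)) ?_ ?_ ?_
    · intro g hg
      rw [Set.mem_toFinset]
      exact (Finset.mem_filter.1 hg).2
    · intro g _ g' _ he
      exact mul_right_cancel he
    · intro g hg
      rw [Set.mem_toFinset] at hg
      exact ⟨g * (φ (up c))⁻¹, Finset.mem_filter.2 ⟨Finset.mem_univ _, by rwa [inv_mul_cancel_right]⟩,
        inv_mul_cancel_right _ _⟩
  have e2 : ∑ c : K, (Finset.univ.filter fun g : M => g * φ (up c) ∈ SS A H).card =
      ∑ g : M, (Finset.univ.filter fun c : K => g * φ (up c) ∈ SS A H).card := by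
    simp only [Finset.card_filter]
    rw [Finset.sum_comm]
  have e3 : ∀ g : M, (Finset.univ.filter fun c : K => g * φ (up c) ∈ SS A H).card ≤
      (if g ∈ SS (A ∪ cj u A) H then Fintype.card K else 0) + 1 := by
    intro g
    by_cases hg : g ∈ SS (A ∪ cj u A) H
    · rw [if_pos hg]
      exact (Finset.card_le_univ _).trans (Nat.le_succ _)
    · rw [if_neg hg, zero_add, Finset.card_le_one]
      intro a ha b hb
      by_contra hab
      apply hg
      have ha := (Finset.mem_filter.1 ha).2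
      have hb := (Finset.mem_filter.1 hb).2
      -- `N = φ⁻¹ (y⁻¹ g⁻¹ H g y)`, `y = φ (up a)`
      let N : Subgroup (Matrix.SpecialLinearGroup (Fin 2) K) :=
        (H.comap (MulAut.conj (g * φ (up a))).toMonoidHom).comap φ
      have hN : ∀ x, x ∈ N ↔ g * φ (up a) * φ x * (g * φ (up a))⁻¹ ∈ H := fun x => Iff.rfl
      have n1 : ∀ c, lo c ∈ N := fun c => (hN _).2 (ha _ ((h1 _).2 ⟨c, rfl⟩))
      have hup : up (K := K) b = up a * up (b - a) := by
        apply Subtype.ext
        simp only [Matrix.SpecialLinearGroup.coe_mul]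
        simp only [up]
        ext i j
        fin_cases i <;> fin_cases j <;> simp [Matrix.mul_apply, Fin.sum_univ_two]
      have n2 : ∀ c, up (b - a) * lo c * (up (b - a))⁻¹ ∈ N := by
        intro c
        rw [hN]
        have := hb _ ((h1 _).2 ⟨c, rfl⟩)
        rw [hup, map_mul] at this
        rw [map_mul, map_mul, map_inv]
        simpa [mul_assoc] using this
      have n3 : ∀ c, up c ∈ N := fun c => up_mem (sub_ne_zero.2 (Ne.symm hab)) c N n1 n2
      have n4 : ∀ x ∈ N, g * φ x * g⁻¹ ∈ H := by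
        intro x hx
        have h3 := (hN _).1 (N.mul_mem (N.mul_mem (N.inv_mem (n3 a)) hx) (n3 a))
        rw [map_mul, map_mul, map_inv] at h3
        have h4 : g * φ (up a) * ((φ (up a))⁻¹ * φ x * φ (up a)) * (g * φ (up a))⁻¹ = g * φ x * g⁻¹ := by group
        rwa [h4] at h3
      rintro x (hx | hx)
      · obtain ⟨c, rfl⟩ := (h1 x).1 hx
        exact n4 _ (n1 c)
      · obtain ⟨c, rfl⟩ := (h2 x).1 hx
        exact n4 _ (n3 c)
  calc Nat.card K * Nat.card (SS A H) = ∑ c : K, (Finset.univ.filter fun g : M => g * φ (up c) ∈ SS A H).card := by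
        rw [Finset.sum_congr rfl fun c _ => e1 c, Finset.sum_const, smul_eq_mul, Finset.card_univ,
          Nat.card_eq_fintype_card]
    _ = _ := e2
    _ ≤ ∑ g : M, ((if g ∈ SS (A ∪ cj u A) H then Fintype.card K else 0) + 1) := Finset.sum_le_sum fun g _ => e3 g
    _ = Nat.card K * Nat.card (SS (A ∪ cj u A) H) + Nat.card M := by
        rw [Finset.sum_add_distrib, Finset.sum_const, smul_eq_mul, mul_one, Finset.card_univ,
          Nat.card_eq_fintype_card (α := M), ← Finset.sum_filter, Finset.sum_const, smul_eq_mul,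
          Nat.card_eq_fintype_card (α := K), Nat.card_eq_fintype_card (α := SS (A ∪ cj u A) H), ← Set.toFinset_card,
          mul_comm]
        congr 3
        ext g
        simp

/-- **root groups have small fixed point ratio** -/
theorem root_bound [Finite K] (A : Set M) (hA : normalClosure A = ⊤) (D : Set M)
    (hD : 2 * (Nat.log 2 (Nat.card M) + 1) * Nat.card (Dᶜ : Set M) ≤ Nat.card M)
    (h : ∀ u ∈ D, ∃ φ : Matrix.SpecialLinearGroup (Fin 2) K →* M, (∀ x, x ∈ A ↔ ∃ c, φ (lo c) = x) ∧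
      ∀ x, x ∈ cj u A ↔ ∃ c, φ (up c) = x)
    (Ω : Type*) [Finite Ω] [MulAction M Ω] (hΩ : ∀ ω : Ω, ∃ g : M, g • ω ≠ ω) :
    fpr Ω A ≤ 2 * ((Nat.log 2 (Nat.card M) + 1 : ℕ) : ℝ) / Nat.card K := by
  classical
  have := Fintype.ofFinite M
  have := Fintype.ofFinite K
  have hKpos : (0 : ℝ) < Nat.card K := by exact_mod_cast Nat.card_pos
  have hMpos : (0 : ℝ) < Nat.card M := by exact_mod_cast Nat.card_pos
  suffices key : ∀ H : Subgroup M, H ≠ ⊤ →
      (Nat.card (SS A H) : ℝ) ≤ 2 * ((Nat.log 2 (Nat.card M) + 1 : ℕ) : ℝ) / Nat.card K * Nat.card M by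
    rcases fpr_le_of_SS A (2 * ((Nat.log 2 (Nat.card M) + 1 : ℕ) : ℝ) / Nat.card K) key Ω hΩ with h1 | h1
    · exact h1
    · unfold fpr
      rw [Nat.card_of_isEmpty, Nat.cast_zero, zero_div]
      positivity
  intro H hH
  obtain ⟨B, hB1, hB2⟩ := exists_conj A hA
  set k := Nat.log 2 (Nat.card M) + 1 with hk
  have h2 := card_SS_le hB2 hH
  have h3 := sum_SS A H
  have hcompl : Nat.card (SS A H) + Nat.card ((SS A H)ᶜ : Set M) = Nat.card M := by
    rw [Nat.card_eq_fintype_card, Nat.card_eq_fintype_card, Nat.card_eq_fintype_card, ← Set.toFinset_card,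
      ← Set.toFinset_card, Set.toFinset_compl]
    exact Finset.card_add_card_compl _
  have hcomplD : Nat.card D + Nat.card (Dᶜ : Set M) = Nat.card M := by
    rw [Nat.card_eq_fintype_card, Nat.card_eq_fintype_card, Nat.card_eq_fintype_card, ← Set.toFinset_card,
      ← Set.toFinset_card, Set.toFinset_compl]
    exact Finset.card_add_card_compl _
  set s : ℝ := ((Nat.card (SS A H) : ℕ) : ℝ) with hs
  set m : ℝ := ((Nat.card M : ℕ) : ℝ) with hm
  set q : ℝ := ((Nat.card K : ℕ) : ℝ) with hq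
  set d : ℝ := ((Nat.card (Dᶜ : Set M) : ℕ) : ℝ) with hd
  have hs0 : 0 ≤ s := by positivity
  have hd0 : 0 ≤ d := by positivity
  have hk1 : (1 : ℝ) ≤ (k : ℝ) := by exact_mod_cast (by omega : 1 ≤ k)
  -- (a) `m ≤ k (m - s)`
  have ha : m ≤ k * (m - s) := by
    have h4 : (m : ℝ) ≤ (B.card : ℝ) * Nat.card ((SS A H)ᶜ : Set M) := by rw [hm]; exact_mod_cast h2
    have h5 : (Nat.card ((SS A H)ᶜ : Set M) : ℝ) = m - s := by
      rw [hm, hs, ← hcompl]; push_cast; ring
    rw [h5] at h4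
    have h6 : 0 ≤ m - s := by rw [← h5]; positivity
    have h7 : (B.card : ℝ) ≤ k := by exact_mod_cast hB1
    calc m ≤ B.card * (m - s) := h4
      _ ≤ k * (m - s) := by gcongr
  -- (b) `2 k d ≤ m`
  have hb : 2 * k * d ≤ m := by
    rw [hm, hd]; exact_mod_cast hD
  -- (c) `(m - d) (q s - m) ≤ q s²`
  have hc : (m - d) * (q * s - m) ≤ q * s ^ 2 := by
    have h4 : ∀ u ∈ D, q * s - m ≤ q * Nat.card (SS (A ∪ cj u A) H) := by
      intro u hu
      obtain ⟨φ, p1, p2⟩ := h u hu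
      have h5 := card_SS_pair A u H φ p1 p2
      have h6 : (Nat.card K : ℝ) * Nat.card (SS A H) ≤ Nat.card K * Nat.card (SS (A ∪ cj u A) H) + Nat.card M := by
        exact_mod_cast h5
      rw [hq, hs, hm]
      linarith
    have h5 : ∑ u ∈ D.toFinset, (q * s - m) ≤ ∑ u ∈ D.toFinset, q * (Nat.card (SS (A ∪ cj u A) H) : ℝ) :=
      Finset.sum_le_sum fun u hu => h4 u (Set.mem_toFinset.1 hu)
    have h6 : ∑ u ∈ D.toFinset, q * (Nat.card (SS (A ∪ cj u A) H) : ℝ) ≤
        ∑ u : M, q * (Nat.card (SS (A ∪ cj u A) H) : ℝ) :=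
      Finset.sum_le_sum_of_subset_of_nonneg (Finset.subset_univ _) fun u _ _ => by positivity
    have h7 : ∑ u : M, q * (Nat.card (SS (A ∪ cj u A) H) : ℝ) = q * s ^ 2 := by
      rw [← Finset.mul_sum, hs, ← Nat.cast_sum, h3]
      push_cast
      rfl
    rw [Finset.sum_const, nsmul_eq_mul, Set.toFinset_card, ← Nat.card_eq_fintype_card] at h5
    have h8 : (Nat.card D : ℝ) = m - d := by
      rw [hm, hd, ← hcomplD]; push_cast; ring
    rw [h8] at h5
    linarith
  -- conclusion: `s ≤ (2 k / q) m`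
  rw [div_mul_eq_mul_div, le_div_iff₀ hKpos, mul_comm s q]
  by_contra hcon
  push Not at hcon
  -- `q s > 2 k m`
  have h1 : 0 < s := by
    by_contra h0
    have h0' : s = 0 := le_antisymm (not_lt.1 h0) hs0
    rw [h0', mul_zero] at hcon
    have : 0 ≤ 2 * (k : ℝ) * m := by positivity
    linarith
  -- multiply (c) by `2k`
  have h4 : 2 * k * ((m - d) * (q * s - m)) ≤ 2 * k * (q * s ^ 2) := by
    have : (0 : ℝ) ≤ 2 * k := by positivity
    exact mul_le_mul_of_nonneg_left hc this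
  have h5 : 0 < q * s - m := by nlinarith
  have h6 : (2 * k - 1) * m ≤ 2 * k * (m - d) := by nlinarith
  have h7 : (2 * k - 1) * m * (q * s - m) ≤ 2 * k * (q * s ^ 2) := by
    calc (2 * k - 1) * m * (q * s - m) ≤ 2 * k * (m - d) * (q * s - m) := by
          apply mul_le_mul_of_nonneg_right h6 h5.le
      _ = 2 * k * ((m - d) * (q * s - m)) := by ring
      _ ≤ _ := h4
  -- `k s ≤ (k - 1) m`
  have h8 : k * s ≤ (k - 1) * m := by nlinarith
  have h9 : 2 * k * (q * s ^ 2) ≤ 2 * (k - 1) * m * (q * s) := by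
    have : 0 ≤ q * s := by positivity
    nlinarith
  -- so `(2k-1) m (q s - m) ≤ (2k - 2) m q s`, i.e. `m q s ≤ (2k-1) m²`
  have h10 : m * (q * s) ≤ (2 * k - 1) * m * m := by nlinarith
  have h11 : q * s ≤ (2 * k - 1) * m := by
    have : m * (q * s) ≤ m * ((2 * k - 1) * m) := by linarith
    exact le_of_mul_le_mul_left this hMpos
  nlinarith

end SL

theorem log_aux (l : ℕ) : (l + 1) ^ 2 ≤ 4 * 2 ^ l := by
  induction l with
  | zero => norm_num
  | succ l ih =>
    rcases Nat.lt_or_ge l 3 with h | h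
    · interval_cases l <;> norm_num
    · have h2 : 2 ^ (l + 1) = 2 * 2 ^ l := by ring
      rw [h2]
      nlinarith

/-- numerical part of the bounded rank estimates -/
theorem num (e n : ℕ) : ∃ C : ℕ, 0 < C ∧ ∀ (q m : ℕ) (f : ℝ), 1 ≤ q → 0 < m → m ≤ q ^ e → 0 ≤ f → f ≤ 1 →
    (4 ≤ q → 2 * (Nat.log 2 m + 1) * n ≤ q →
      f ^ 4 ≤ 2 * (2 * ((Nat.log 2 m + 1 : ℕ) : ℝ) / q + 7 / √(q : ℝ)) + 10 / (q : ℝ)) →
    f ^ C * (q : ℝ) ^ 2 ≤ C := by
  set c := 2 * (e + 1) with hc
  refine ⟨16 + (4 * c + 24) ^ 4 + (4 + 4 * c ^ 2 * n ^ 2) ^ 2, by positivity, ?_⟩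
  intro q m f hq hm hmq hf0 hf1 h
  set C := 16 + (4 * c + 24) ^ 4 + (4 + 4 * c ^ 2 * n ^ 2) ^ 2 with hC
  set k := Nat.log 2 m + 1 with hk
  -- `k ≤ c √q`
  have hqR : (1 : ℝ) ≤ q := by exact_mod_cast hq
  have hk1 : k ≤ (e + 1) * (Nat.log 2 q + 1) := by
    have h1 : q ≤ 2 ^ (Nat.log 2 q + 1) := (Nat.lt_pow_succ_log_self (by norm_num) q).le
    have h2 : m ≤ 2 ^ ((Nat.log 2 q + 1) * e) := by
      calc m ≤ q ^ e := hmq
        _ ≤ (2 ^ (Nat.log 2 q + 1)) ^ e := Nat.pow_le_pow_left h1 e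
        _ = _ := by rw [← pow_mul]
    have h3 : Nat.log 2 m ≤ (Nat.log 2 q + 1) * e := by
      calc Nat.log 2 m ≤ Nat.log 2 (2 ^ ((Nat.log 2 q + 1) * e)) := Nat.log_mono_right h2
        _ = _ := Nat.log_pow (by norm_num) _
    rw [hk]
    nlinarith
  have hs0 : 0 ≤ √(q : ℝ) := Real.sqrt_nonneg _
  have hs2 : √(q : ℝ) ^ 2 = q := Real.sq_sqrt (by linarith)
  have hs1 : 1 ≤ √(q : ℝ) := by
    rw [← Real.sqrt_one]
    exact Real.sqrt_le_sqrt hqR
  set s := √(q : ℝ) with hs
  have hks : (k : ℝ) ≤ c * s := by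
    have h1 : (Nat.log 2 q + 1) ^ 2 ≤ 4 * q := (log_aux _).trans (Nat.mul_le_mul_left 4 (Nat.pow_log_le_self 2 (by omega)))
    have h2 : k ^ 2 ≤ c ^ 2 * q := by
      calc k ^ 2 ≤ ((e + 1) * (Nat.log 2 q + 1)) ^ 2 := Nat.pow_le_pow_left hk1 2
        _ = (e + 1) ^ 2 * (Nat.log 2 q + 1) ^ 2 := by ring
        _ ≤ (e + 1) ^ 2 * (4 * q) := Nat.mul_le_mul_left _ h1
        _ = c ^ 2 * q := by rw [hc]; ring
    have h3 : (k : ℝ) ^ 2 ≤ (c * s) ^ 2 := by
      rw [mul_pow, hs2]
      exact_mod_cast h2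
    exact le_of_sq_le_sq h3 (by positivity)
  have hC16 : 16 ≤ C := by omega
  have hCD : (4 * c + 24) ^ 4 ≤ C := by omega
  have hCq : (4 + 4 * c ^ 2 * n ^ 2) ^ 2 ≤ C := by omega
  by_cases h4 : 4 ≤ q ∧ 2 * k * n ≤ q
  · have h1 := h h4.1 h4.2
    have hspos : 0 < s := by linarith
    have h2 : f ^ 4 ≤ (4 * c + 24) / s := by
      refine h1.trans ?_
      have e1 : 2 * (k : ℝ) / q ≤ 2 * c / s := by
        rw [div_le_div_iff₀ (by linarith) hspos, ← hs2]
        calc 2 * (k : ℝ) * s ≤ 2 * (c * s) * s := by gcongr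
          _ = 2 * c * s ^ 2 := by ring
      have e2 : 10 / (q : ℝ) ≤ 10 / s := by
        apply div_le_div_of_nonneg_left (by norm_num) hspos
        rw [← hs2]
        nlinarith
      calc 2 * (2 * (k : ℝ) / q + 7 / s) + 10 / (q : ℝ) ≤ 2 * (2 * c / s + 7 / s) + 10 / s := by gcongr
        _ = (4 * c + 24) / s := by ring
    have h3 : f ^ 16 * (q : ℝ) ^ 2 ≤ (4 * c + 24) ^ 4 := by
      have e1 : (f ^ 4) ^ 4 ≤ ((4 * c + 24) / s) ^ 4 := by gcongr
      have e2 : (q : ℝ) ^ 2 = s ^ 4 := by rw [← hs2]; ring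
      rw [e2]
      calc f ^ 16 * s ^ 4 = (f ^ 4) ^ 4 * s ^ 4 := by ring
        _ ≤ ((4 * c + 24) / s) ^ 4 * s ^ 4 := by gcongr
        _ = (4 * c + 24) ^ 4 := by
          rw [div_pow]
          field_simp
    calc f ^ C * (q : ℝ) ^ 2 ≤ f ^ 16 * (q : ℝ) ^ 2 := by
          gcongr ?_ * _
          exact pow_le_pow_of_le_one hf0 hf1 hC16
      _ ≤ (4 * (c : ℝ) + 24) ^ 4 := h3
      _ ≤ (C : ℝ) := by exact_mod_cast hCD
  · have hq2 : (q : ℝ) ≤ 4 + 4 * c ^ 2 * n ^ 2 := by
      rw [not_and_or] at h4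
      rcases h4 with h4 | h4
      · have : (q : ℝ) ≤ 4 := by exact_mod_cast (by omega : q ≤ 4)
        have : 0 ≤ 4 * (c : ℝ) ^ 2 * n ^ 2 := by positivity
        linarith
      · have h5 : (q : ℝ) ≤ 2 * k * n := by exact_mod_cast (by omega : q ≤ 2 * k * n)
        have h6 : s * s ≤ 2 * c * n * s := by
          calc s * s = q := by rw [← hs2]; ring
            _ ≤ 2 * k * n := h5
            _ ≤ 2 * (c * s) * n := by gcongr
            _ = 2 * c * n * s := by ring
        have h7 : s ≤ 2 * c * n := le_of_mul_le_mul_right h6 (by linarith)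
        have h8 : (q : ℝ) ≤ (2 * c * n) ^ 2 := by
          rw [← hs2]
          gcongr
        calc (q : ℝ) ≤ (2 * c * n) ^ 2 := h8
          _ = 4 * c ^ 2 * n ^ 2 := by ring
          _ ≤ _ := by linarith
    calc f ^ C * (q : ℝ) ^ 2 ≤ 1 * (4 + 4 * (c : ℝ) ^ 2 * n ^ 2) ^ 2 := by
          gcongr
          exact pow_le_one₀ hf0 hf1
      _ = (4 + 4 * (c : ℝ) ^ 2 * n ^ 2) ^ 2 := one_mul _
      _ ≤ (C : ℝ) := by exact_mod_cast hCq

end Cfsg.Agent.H830.B57.RootB
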