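import Cfsg.Agent.H830.B57.RootB
import Cfsg.Agent.H920.FP.G7
import Cfsg.Agent.H917.FP.SLTwo
import Cfsg.Agent.ClassicalGeometry.SympSiegel
import Cfsg.Agent.LieClassical.SympSimple
import Cfsg.Agent.S0765
import Cfsg.Agent.H254.BS.PartI

/-!
# S5717, bounded rank: `Sp_2m(q)` (helper830)
-/

set_option autoImplicit false
set_option linter.unusedVariables false
set_option linter.unusedSectionVars false

open Matrix Cfsg

namespace Cfsg.Agent.H830.B57.RootSp

open Cfsg.Agent.ClassicalGeometry.SympBasic Cfsg.Agent.ClassicalGeometry.SympSiegel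
  Cfsg.Agent.H917.FP Cfsg.Agent.H920.FP Cfsg.Agent.H830.B57.RootB Cfsg.Agent.H254.BS.PI

variable {F : Type} [Field F] {m : ℕ}

local notation "V" => (Fin m ⊕ Fin m → F)
local notation "G" => Matrix.symplecticGroup (Fin m) F
local notation "f" => sympForm m F

/-- `SL₂` acting on the hyperbolic plane with basis `v`, `w` -/
def lin (v w : V) (a b c d : F) : V →ₗ[F] V :=
  LinearMap.id + ((a - 1) • (sympBilin m F w) + (-b) • (sympBilin m F v)).smulRight (-v) +
    (c • (sympBilin m F w) + (-(d - 1)) • (sympBilin m F v)).smulRight (-w)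

theorem lin_apply (v w : V) (a b c d : F) (x : V) :
    lin v w a b c d x = x + ((a - 1) * f x w + b * f v x) • v + (c * f x w + (d - 1) * f v x) • w := by
  have h1 : lin v w a b c d x = x + ((a - 1) * f w x + (-b) * f v x) • (-v) +
    (c * f w x + (-(d - 1)) * f v x) • (-w) := rfl
  rw [h1, sympForm_swap x w]
  module

theorem form_lin {v w : V} (h : f v w = 1) {a b c d : F} (hdet : a * d - b * c = 1) (x y : V) :
    f (lin v w a b c d x) (lin v w a b c d y) = f x y := by
  have h' : f w v = -1 := by rw [sympForm_swap, h]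
  rw [lin_apply, lin_apply]
  simp only [sympForm_add_left, sympForm_add_right, sympForm_smul_left,
    sympForm_smul_right, sympForm_self, h, h']
  rw [sympForm_swap x v, sympForm_swap y w]
  have e1 : f v y = f v y := rfl
  set α := f x w
  set β := f v x
  set α' := f w y
  set β' := f v y
  linear_combination (α * β' + β * α') * hdet

theorem lin_mul {v w : V} (h : f v w = 1) (a b c d a' b' c' d' : F) (x : V) :
    lin v w a b c d (lin v w a' b' c' d' x) =
      lin v w (a * a' + b * c') (a * b' + b * d') (c * a' + d * c') (c * b' + d * d') x := by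
  have h' : f w v = -1 := by rw [sympForm_swap, h]
  rw [lin_apply, lin_apply, lin_apply]
  simp only [sympForm_add_left, sympForm_add_right, sympForm_smul_left,
    sympForm_smul_right, sympForm_self, h]
  module

theorem det_eq (g : Matrix.SpecialLinearGroup (Fin 2) F) : g.1 0 0 * g.1 1 1 - g.1 0 1 * g.1 1 0 = 1 := by
  have := g.2
  rwa [Matrix.det_fin_two] at this

/-- the homomorphism -/
noncomputable def phi {v w : V} (h : f v w = 1) : Matrix.SpecialLinearGroup (Fin 2) F →* G where
  toFun g := ofIso (lin v w (g.1 0 0) (g.1 0 1) (g.1 1 0) (g.1 1 1)) (form_lin h (det_eq g))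
  map_one' := by
    apply ext_smul
    intro x
    rw [ofIso_smul, lin_apply, one_smul]
    simp
  map_mul' g g' := by
    apply ext_smul
    intro x
    rw [mul_smul, ofIso_smul, ofIso_smul, ofIso_smul, lin_mul h]
    simp [Matrix.mul_apply, Fin.sum_univ_two]

theorem phi_smul {v w : V} (h : f v w = 1) (g : Matrix.SpecialLinearGroup (Fin 2) F) (x : V) :
    phi h g • x = x + ((g.1 0 0 - 1) * f x w + g.1 0 1 * f v x) • v + (g.1 1 0 * f x w + (g.1 1 1 - 1) * f v x) • w := by
  change ofIso (lin v w (g.1 0 0) (g.1 0 1) (g.1 1 0) (g.1 1 1)) (form_lin h (det_eq g)) • x = _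
  rw [ofIso_smul, lin_apply]

theorem phi_lo {v w : V} (h : f v w = 1) (c : F) : phi h (lo c) = transv w c := by
  apply ext_smul
  intro x
  rw [phi_smul, transv_smul]
  have e1 : (lo c).1 0 0 = (1 : F) := rfl
  have e2 : (lo c).1 0 1 = (0 : F) := rfl
  have e3 : (lo c).1 1 0 = c := rfl
  have e4 : (lo c).1 1 1 = (1 : F) := rfl
  rw [e1, e2, e3, e4]
  module

theorem phi_up {v w : V} (h : f v w = 1) (c : F) : phi h (up c) = transv v (-c) := by
  apply ext_smul
  intro x
  rw [phi_smul, transv_smul, sympForm_swap x v]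
  have e1 : (up c).1 0 0 = (1 : F) := rfl
  have e2 : (up c).1 0 1 = c := rfl
  have e3 : (up c).1 1 0 = (0 : F) := rfl
  have e4 : (up c).1 1 1 = (1 : F) := rfl
  rw [e1, e2, e3, e4]
  module

/-- the transvection group -/
def T (v : V) : Set G := {g | ∃ c, transv v c = g}

theorem mem_T_lo {v w : V} (h : f v w = 1) (x : G) : x ∈ T w ↔ ∃ c, phi h (lo c) = x := by
  constructor
  · rintro ⟨c, rfl⟩
    exact ⟨c, phi_lo h c⟩
  · rintro ⟨c, rfl⟩
    exact ⟨c, (phi_lo h c).symm⟩

theorem mem_T_up {v w : V} (h : f v w = 1) (x : G) : x ∈ T v ↔ ∃ c, phi h (up c) = x := by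
  constructor
  · rintro ⟨c, rfl⟩
    exact ⟨-c, by rw [phi_up, neg_neg]⟩
  · rintro ⟨c, rfl⟩
    exact ⟨-c, (phi_up h c).symm⟩

theorem T_smul {v : V} {c : F} (hc : c ≠ 0) : T (c • v) = T v := by
  ext x
  constructor
  · rintro ⟨a, rfl⟩
    exact ⟨c ^ 2 * a, (transv_smul_vec v c a).symm⟩
  · rintro ⟨a, rfl⟩
    refine ⟨(c ^ 2)⁻¹ * a, ?_⟩
    rw [transv_smul_vec, mul_inv_cancel_left₀ (pow_ne_zero 2 hc)]

theorem T_conj (v : V) (g : G) : cj g (T v) = T (g • v) := by
  ext x
  constructor
  · rintro ⟨_, ⟨c, rfl⟩, rfl⟩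
    exact ⟨c, (conj_transv g v c).symm⟩
  · rintro ⟨c, rfl⟩
    exact ⟨transv v c, ⟨c, rfl⟩, conj_transv g v c⟩

theorem exists_one {v : V} (hv : v ≠ 0) : ∃ w, f v w = 1 := exists_form_eq_one hv

theorem span_ne {v : V} (hv : v ≠ 0) : Submodule.span F {u : V | f u v ≠ 0} = ⊤ := by
  obtain ⟨w, hw⟩ := exists_one hv
  have hwv : f w v = -1 := by rw [sympForm_swap, hw]
  set W := Submodule.span F {u : V | f u v ≠ 0} with hW
  have hwW : w ∈ W := Submodule.subset_span (show f w v ≠ 0 by rw [hwv]; exact neg_ne_zero.2 one_ne_zero)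
  rw [eq_top_iff]
  intro x _
  by_cases hx : f x v = 0
  · have h2 : x + w ∈ W := by
      apply Submodule.subset_span
      show f (x + w) v ≠ 0
      rw [sympForm_add_left, hx, hwv, zero_add]
      exact neg_ne_zero.2 one_ne_zero
    have h3 := W.sub_mem h2 hwW
    rwa [add_sub_cancel_right] at h3
  · exact Submodule.subset_span hx

/-- few elements map `v` into `v^⊥` -/
theorem card_bad_le [Fintype F] {v : V} (hv0 : v ≠ 0) :
    Fintype.card F * Nat.card {u : G | f (u • v) v = 0} ≤ 2 * m * Nat.card G := by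
  classical
  let b := Module.Basis.ofSpan (span_ne hv0).ge
  have hbS : ∀ i, f (b i) v ≠ 0 := by
    intro i
    have := Module.Basis.ofSpan_subset (span_ne hv0).ge
    exact this ⟨i, rfl⟩
  have := Fintype.ofFinite G
  have hfin : Fintype ((linearIndepOn_empty F id).extend (Set.empty_subset {u : V | f u v ≠ 0})) := Fintype.ofFinite _
  have hcardb : Fintype.card ((linearIndepOn_empty F id).extend (Set.empty_subset {u : V | f u v ≠ 0})) = 2 * m := by
    rw [← Module.finrank_eq_card_basis b, Module.finrank_fintype_fun_eq_card, Fintype.card_sum, Fintype.card_fin]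
    ring
  -- one basis vector
  have hone : ∀ i, Fintype.card F * (Finset.univ.filter fun u : G => f (u • v) v = 0 ∧
      f (u • v) (b i) ≠ 0).card ≤ Nat.card G := by
    intro i
    have hbi := hbS i
    set z := b i with hz
    let E := {u : G // f (u • v) v = 0 ∧ f (u • v) z ≠ 0}
    have hinj : Function.Injective (fun p : F × E => transv z p.1 * p.2.1) := by
      rintro ⟨c, u, hu1, hu2⟩ ⟨c', u', hu1', hu2'⟩ he
      simp only at he
      have h1 := congrArg (fun g : G => f (g • v) v) he
      have h2 := congrArg (fun g : G => f (g • v) z) he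
      simp only [mul_smul, transv_smul, sympForm_add_left, sympForm_smul_left, sympForm_self, hu1, hu1',
        mul_zero, add_zero, zero_add] at h1 h2
      rw [← h2] at h1
      have h3 : (c - c') * (f (u • v) z * f z v) = 0 := by
        linear_combination h1
      have h4 : c = c' := by
        rcases mul_eq_zero.1 h3 with h5 | h5
        · exact sub_eq_zero.1 h5
        · exact absurd h5 (mul_ne_zero hu2 hbi)
      subst h4
      have h6 : u = u' := mul_left_cancel he
      subst h6
      rfl
    have h1 := Nat.card_le_card_of_injective _ hinj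
    rw [Nat.card_prod, Nat.card_eq_fintype_card (α := F)] at h1
    refine le_trans (Nat.mul_le_mul_left _ (le_of_eq ?_)) h1
    rw [Nat.card_eq_fintype_card, Fintype.card_subtype]
  have hcov : (Finset.univ.filter fun u : G => f (u • v) v = 0) ⊆
      Finset.univ.biUnion fun i => Finset.univ.filter fun u : G => f (u • v) v = 0 ∧ f (u • v) (b i) ≠ 0 := by
    intro u hu
    have hu := (Finset.mem_filter.1 hu).2
    rw [Finset.mem_biUnion]
    by_contra hcon
    push Not at hcon
    have h1 : ∀ i, f (u • v) (b i) = 0 := by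
      intro i
      by_contra h2
      exact hcon i (Finset.mem_univ _) (Finset.mem_filter.2 ⟨Finset.mem_univ _, hu, h2⟩)
    have h2 : u • v = 0 := by
      apply eq_zero_of_forall_sympForm_right
      intro x
      have h3 : (sympBilin m F (u • v)) = 0 := by
        apply b.ext
        intro i
        exact h1 i
      have := congrArg (fun g => g x) h3
      exact this
    exact hv0 ((smul_eq_zero_iff' u v).1 h2)
  have h1 := Finset.card_le_card hcov
  have h2 : Nat.card {u : G | f (u • v) v = 0} =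
      (Finset.univ.filter fun u : G => f (u • v) v = 0).card := by
    rw [Nat.card_eq_fintype_card, ← Set.toFinset_card]
    congr 1
    ext u
    simp
  rw [h2]
  calc Fintype.card F * (Finset.univ.filter fun u : G => f (u • v) v = 0).card
      ≤ Fintype.card F * ∑ i, (Finset.univ.filter fun u : G => f (u • v) v = 0 ∧ f (u • v) (b i) ≠ 0).card :=
        Nat.mul_le_mul_left _ (h1.trans Finset.card_biUnion_le)
    _ = ∑ i, Fintype.card F * (Finset.univ.filter fun u : G => f (u • v) v = 0 ∧
        f (u • v) (b i) ≠ 0).card := Finset.mul_sum _ _ _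
    _ ≤ ∑ _i : ((linearIndepOn_empty F id).extend (Set.empty_subset {u : V | f u v ≠ 0})), Nat.card G :=
        Finset.sum_le_sum fun i _ => hone i
    _ = 2 * m * Nat.card G := by rw [Finset.sum_const, smul_eq_mul, Finset.card_univ, hcardb]

/-- a partner of `v` orthogonal to `v'` -/
theorem exists_pair {v v' : V} (hv0 : v ≠ 0) (hv'0 : v' ≠ 0) (hne : ¬ ∃ c : F, v' = c • v) :
    ∃ w, f w v = 1 ∧ f v' w = 0 := by
  obtain ⟨y1, hy1⟩ := exists_one hv'0
  set a := f v y1 with ha
  set u := v - a • v' with hu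
  have hu0 : u ≠ 0 := by
    intro h
    have h1 : v = a • v' := sub_eq_zero.1 h
    by_cases ha0 : a = 0
    · rw [ha0, zero_smul] at h1
      exact hv0 h1
    · apply hne
      exact ⟨a⁻¹, by rw [h1, smul_smul, inv_mul_cancel₀ ha0, one_smul]⟩
  have huy1 : f u y1 = 0 := by
    rw [hu, sympForm_sub_left, sympForm_smul_left, hy1, mul_one, ← ha, sub_self]
  obtain ⟨y2, hy2⟩ := exists_one hu0
  set y := y2 - f v' y2 • y1 with hy
  have h1 : f v' y = 0 := by
    rw [hy, sympForm_sub_right, sympForm_smul_right, hy1, mul_one, sub_self]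
  have h2 : f v y = 1 := by
    have h3 : f u y = f u y2 := by
      rw [hy, sympForm_sub_right, sympForm_smul_right, huy1, mul_zero, sub_zero]
    have h4 : f v y = f u y := by
      rw [hu, sympForm_sub_left, sympForm_smul_left, h1, mul_zero, sub_zero]
    rw [h4, h3, hy2]
  refine ⟨-y, ?_, ?_⟩
  · rw [sympForm_neg_left, sympForm_swap, h2, neg_neg]
  · rw [sympForm_neg_right, h1, neg_zero]

theorem normalClosure_T {v : V} (hv0 : v ≠ 0) : Subgroup.normalClosure (T v) = ⊤ := by
  rw [eq_top_iff, ← Cfsg.Agent.S0765.result (F := F) m, Subgroup.closure_le]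
  rintro A ⟨w, c, hA⟩
  have hA' : A = transv w c := Subtype.ext hA
  subst hA'
  by_cases hw : w = 0
  · subst hw
    have : transv (0 : V) c = 1 := by
      apply ext_smul
      intro x
      rw [transv_smul, one_smul, smul_zero, add_zero]
    rw [this]
    exact Subgroup.one_mem _
  · obtain ⟨g, -, hg⟩ := exists_transvGroup_mulVec_eq hv0 hw
    have hg' : g • v = w := hg
    rw [← hg', ← conj_transv]
    exact Subgroup.normalClosure_normal.conj_mem _
      (Subgroup.subset_normalClosure (show transv v c ∈ T v from ⟨c, rfl⟩)) g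

/-- the root group bound for `Sp` -/
theorem fpr_T [Fintype F] (hm : 1 ≤ m) {v : V} (hv0 : v ≠ 0)
    (hq : 2 * (Nat.log 2 (Nat.card G) + 1) * (2 * m) ≤ Fintype.card F)
    (Ω : Type*) [Finite Ω] [MulAction G Ω] (hΩ : ∀ ω : Ω, ∃ g : G, g • ω ≠ ω) :
    fpr Ω (T v) ≤ 2 * ((Nat.log 2 (Nat.card G) + 1 : ℕ) : ℝ) / Fintype.card F := by
  have h1 := root_bound (K := F) (T v) (normalClosure_T hv0) {u : G | f (u • v) v ≠ 0} ?_ ?_ Ω hΩ
  · rwa [Nat.card_eq_fintype_card (α := F)] at h1
  · have h2 := card_bad_le hv0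
    have h3 : ({u : G | f (u • v) v ≠ 0}ᶜ : Set G) = {u : G | f (u • v) v = 0} := by
      ext u
      simp
    rw [h3]
    set N := Nat.card {u : G | f (u • v) v = 0}
    set k := Nat.log 2 (Nat.card G) + 1
    have h5 : (2 * m) * (2 * k * N) ≤ (2 * m) * Nat.card G := by
      calc (2 * m) * (2 * k * N) = (2 * k * (2 * m)) * N := by ring
        _ ≤ Fintype.card F * N := Nat.mul_le_mul_right N hq
        _ ≤ (2 * m) * Nat.card G := h2
    exact Nat.le_of_mul_le_mul_left h5 (by omega)
  · intro u hu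
    have hu' : f (u • v) v ≠ 0 := hu
    set c := (f (u • v) v)⁻¹ with hc
    have hc0 : c ≠ 0 := inv_ne_zero hu'
    have hP : f (c • (u • v)) v = 1 := by
      rw [sympForm_smul_left, hc, inv_mul_cancel₀ hu']
    refine ⟨phi hP, mem_T_lo hP, fun x => ?_⟩
    rw [T_conj, ← T_smul hc0]
    exact mem_T_up hP x

/-- the product of nontrivial upper and lower unitriangular matrices is not central -/
theorem not_central {K : Type*} [Field K] {a b : K} (ha : a ≠ 0) :
    up a * lo b ∉ Subgroup.center (Matrix.SpecialLinearGroup (Fin 2) K) := by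
  intro h
  have h1 := Subgroup.mem_center_iff.1 h (lo 1)
  have h2 := congrArg (fun g => g.1 0 0) h1
  simp only [Matrix.SpecialLinearGroup.coe_mul, Matrix.mul_apply, Fin.sum_univ_two] at h2
  simp [lo, up] at h2
  exact ha h2

/-- the bound for one element -/
theorem fpr_four [Fintype F] (hm : 1 ≤ m) (h4 : 4 ≤ Fintype.card F)
    (hq : 2 * (Nat.log 2 (Nat.card G) + 1) * (2 * m) ≤ Fintype.card F) {x : G}
    (hx : x ∉ Subgroup.center G)
    (Ω : Type) [Finite Ω] [MulAction G Ω] (hΩ : ∀ ω : Ω, ∃ g : G, g • ω ≠ ω) :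
    fpr Ω {x} ^ 4 ≤ 2 * (2 * ((Nat.log 2 (Nat.card G) + 1 : ℕ) : ℝ) / Fintype.card F + 7 / √(Fintype.card F : ℝ)) +
      10 / (Fintype.card F : ℝ) := by
  obtain ⟨v, hne⟩ : ∃ v : V, ¬ ∃ c : F, x • v = c • v := by
    by_contra hcon
    push Not at hcon
    exact hx (Cfsg.Agent.LieClassical.SympSimple.mem_center_of_forall hcon)
  have hv0 : v ≠ 0 := by
    rintro rfl
    exact hne ⟨0, by rw [smul_zero', smul_zero]⟩
  have hv'0 : x • v ≠ 0 := smul_ne_zero' x hv0
  set δ := 2 * ((Nat.log 2 (Nat.card G) + 1 : ℕ) : ℝ) / Fintype.card F + 7 / √(Fintype.card F : ℝ) with hδ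
  have hδ0 : 0 ≤ δ := by positivity
  have hqpos : (0 : ℝ) < Fintype.card F := by exact_mod_cast (by omega : 0 < Fintype.card F)
  have hT := fpr_T hm hv0 hq Ω hΩ
  by_cases horth : f (x • v) v = 0
  · -- orthogonal case
    obtain ⟨w, hw, hxw⟩ := exists_pair hv0 hv'0 hne
    have h1 := fpr_of_commute Ω (phi hw) x ?_ hδ0 ?_
    · rwa [Nat.card_eq_fintype_card (α := F)] at h1
    · intro c y
      rw [phi_lo, conj_transv]
      have h5 : phi hw y * transv (x • v) c * (phi hw y)⁻¹ = transv (x • v) c := by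
        rw [conj_transv]
        congr 1
        have h6 : f w (x • v) = 0 := by rw [sympForm_swap, hxw, neg_zero]
        rw [phi_smul, horth, h6]
        simp
      exact (mul_inv_eq_iff_eq_mul.1 h5).symm
    · intro z hz
      refine (fpr_sl2_hom h4 (phi hw) hz).trans ?_
      rw [hδ]
      gcongr
      refine (fpr_anti Ω ?_).trans hT
      intro g hg
      obtain ⟨c, rfl⟩ := (mem_T_lo hw g).1 hg
      exact ⟨_, rfl⟩
  · -- opposite case
    set c := (f (x • v) v)⁻¹ with hc
    have hc0 : c ≠ 0 := inv_ne_zero horth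
    have hP : f (c • (x • v)) v = 1 := by
      rw [sympForm_smul_left, hc, inv_mul_cancel₀ horth]
    have h1 := cs_comm_hom Ω ((phi hP).comp (loH F)) x {1} δ hδ0 ?_
    · have h2 : (Nat.card ({1} : Set (Multiplicative F)) : ℝ) = 1 := by simp
      have h3 : (Nat.card (Multiplicative F) : ℝ) = Fintype.card F := by
        rw [Nat.card_congr Multiplicative.toAdd, Nat.card_eq_fintype_card]
      rw [h2, h3] at h1
      have h5 := fpr_nonneg Ω ({x} : Set G)
      have h6 := fpr_le_one Ω ({x} : Set G)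
      have h7 : fpr Ω {x} ^ 4 ≤ fpr Ω {x} ^ 2 := pow_le_pow_of_le_one h5 h6 (by norm_num)
      have h8 : 1 / (Fintype.card F : ℝ) ≤ 10 / Fintype.card F := by gcongr; norm_num
      linarith
    · intro y hy
      have hy0 : Multiplicative.toAdd y ≠ 0 := fun h => hy h
      set b := Multiplicative.toAdd y with hb
      have e0 : ((phi hP).comp (loH F)) y = phi hP (lo b) := rfl
      rw [e0]
      -- the conjugate lies in the other root group
      have h5 : x * phi hP (lo b) * x⁻¹ ∈ T (c • (x • v)) := by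
        rw [T_smul hc0, ← T_conj]
        exact ⟨_, (mem_T_lo hP _).2 ⟨b, rfl⟩, rfl⟩
      obtain ⟨a, ha⟩ := (mem_T_up hP _).1 h5
      have ha0 : a ≠ 0 := by
        rintro rfl
        rw [phi_up, neg_zero, transv_zero] at ha
        have h7 : phi hP (lo b) = 1 := by
          have := congrArg (fun g => x⁻¹ * g * x) ha
          simp only [mul_one, inv_mul_cancel] at this
          rw [eq_comm] at this
          have h8 : x⁻¹ * (x * phi hP (lo b) * x⁻¹) * x = phi hP (lo b) := by group
          rwa [h8] at this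
        have h8 := congrArg (fun g : G => g • (c • (x • v))) h7
        simp only [phi_lo, transv_smul, one_smul, hP, mul_one] at h8
        rw [add_eq_left, smul_eq_zero] at h8
        rcases h8 with h8 | h8
        · exact hy0 h8
        · exact hv0 h8
      have e1 : x * (phi hP (lo b) * x⁻¹ * (phi hP (lo b))⁻¹) = phi hP (up a * lo (-b)) := by
        rw [map_mul, ← lo_inv, map_inv, ha]
        group
      rw [e1]
      refine (fpr_sl2_hom h4 (phi hP) (not_central ha0)).trans ?_
      rw [hδ]
      gcongr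
      refine (fpr_anti Ω ?_).trans hT
      intro g hg
      obtain ⟨c, rfl⟩ := (mem_T_lo hP g).1 hg
      exact ⟨_, rfl⟩

theorem card_le [Fintype F] : Nat.card G ≤ Fintype.card F ^ (2 * m) ^ 2 := by
  have h1 : Nat.card G ≤ Nat.card (Matrix (Fin m ⊕ Fin m) (Fin m ⊕ Fin m) F) :=
    Nat.card_le_card_of_injective (fun g => (g : Matrix (Fin m ⊕ Fin m) (Fin m ⊕ Fin m) F)) Subtype.val_injective
  refine h1.trans (le_of_eq ?_)
  show Nat.card (Fin m ⊕ Fin m → Fin m ⊕ Fin m → F) = _
  rw [Nat.card_fun, Nat.card_fun, Nat.card_eq_fintype_card, Nat.card_sum, Nat.card_fin, ← pow_mul]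
  congr 1
  ring

theorem br_sp : BR_Sp := by
  intro n₀
  obtain ⟨C, hC0, hC⟩ := num ((2 * n₀) ^ 2) (2 * n₀)
  refine ⟨C, hC0, ?_⟩
  intro F _ _ m hm hn0 h32 x hx Ω _ _ hΩ
  have hq1 : 1 ≤ Fintype.card F := Fintype.card_pos
  have h1 := hC (Fintype.card F) (Nat.card (Matrix.symplecticGroup (Fin m) F)) (fpr Ω {x}) hq1 Nat.card_pos ?_
    (fpr_nonneg Ω _) (fpr_le_one Ω _) ?_
  · refine le_trans ?_ h1
    have h2 : (1 : ℝ) ≤ (Fintype.card F : ℝ) := by exact_mod_cast hq1
    have h3 : (Fintype.card F : ℝ) ≤ (Fintype.card F : ℝ) ^ 2 := by nlinarith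
    have h4 := fpr_nonneg Ω ({x} : Set (Matrix.symplecticGroup (Fin m) F))
    gcongr
  · refine card_le.trans ?_
    apply Nat.pow_le_pow_right hq1
    gcongr
  · intro h4 hq
    refine fpr_four (by omega) h4 ?_ hx Ω hΩ
    refine le_trans ?_ hq
    gcongr

end Cfsg.Agent.H830.B57.RootSp
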