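import Cfsg.Agent.H830.B57.Defs

/-!
# S5717, primitive linear groups: `HomDec`, `Str`
-/

set_option autoImplicit false

open Subgroup

namespace Cfsg.Agent.H830.B57

variable {p : ℕ} [Fact p.Prime] {V : Type} [AddCommGroup V] [Module (ZMod p) V]

/-- `V` restricted to `E` is the sum of `M` copies of an irreducible module. -/
structure HomDec (E : Subgroup (V ≃ₗ[ZMod p] V)) {U : Type} [AddCommGroup U] [Module (ZMod p) U]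
    (M : ℕ) (ρ : E →* (U ≃ₗ[ZMod p] U)) (φ : V ≃ₗ[ZMod p] (Fin M → U)) : Prop where
  eq : ∀ (e : E) (v : V) (j : Fin M), φ ((e : V ≃ₗ[ZMod p] V) v) j = ρ e (φ v j)
  irr : ∀ W : Submodule (ZMod p) U, (∀ (e : E), ∀ w ∈ W, ρ e w ∈ W) → W = ⊥ ∨ W = ⊤
  nt : ∃ u : U, u ≠ 0

/-- The structure of a primitive linear group. -/
structure Str (X A C R : Subgroup (V ≃ₗ[ZMod p] V)) (t : ℕ)
    (E : Fin t → Subgroup (V ≃ₗ[ZMod p] V)) : Prop where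
  AR : A ≤ R
  RC : R ≤ C
  CX : C ≤ X
  Acomm : ∀ x ∈ A, ∀ y ∈ A, x * y = y * x
  Anorm : ∀ x ∈ X, ∀ y ∈ A, x * y * x⁻¹ ∈ A
  Ceq : ∀ x, x ∈ C ↔ x ∈ X ∧ ∀ a ∈ A, x * a = a * x
  Rnorm : ∀ x ∈ X, ∀ y ∈ R, x * y * x⁻¹ ∈ R
  Rcomm : ∀ x ∈ R, ∀ y ∈ R, x * y * x⁻¹ * y⁻¹ ∈ A
  Rcent : ∀ x ∈ R, (∀ y ∈ R, x * y = y * x) → x ∈ A
  EC : ∀ i, E i ≤ C
  Einj : Function.Injective E
  Eperf : ∀ i, commutator (E i) = ⊤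
  Esimp : ∀ i, IsSimpleGroup (E i ⧸ center (E i))
  Enab : ∀ i, ∃ x y : E i ⧸ center (E i), x * y ≠ y * x
  Ecomm : ∀ i j, i ≠ j → ∀ x ∈ E i, ∀ y ∈ E j, x * y = y * x
  ER : ∀ i, ∀ x ∈ E i, ∀ y ∈ R, x * y = y * x
  Eperm : ∀ x ∈ X, ∀ i, ∃ j, ∀ y, y ∈ E i ↔ x * y * x⁻¹ ∈ E j
  cent : ∀ x ∈ C, (∀ r ∈ R, x * r = r * x) → (∀ i, ∀ e ∈ E i, x * e = e * x) → x ∈ A

end Cfsg.Agent.H830.B57
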